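import Cfsg.Agent.UGenN.Closure
import Cfsg.Agent.Unitary.Basic

/-!
The regular unipotent element of `SU_n`, `n` odd, on `F[z]/(z - 1)^n`, with a trace form chosen so
that `1` spans the distinguished configuration.
-/

set_option autoImplicit false

namespace CfsgLib.UGenN

open Matrix Polynomial CfsgLib.UGeom

variable {F : Type*} [Field F] [Fintype F] {q n : ℕ}

local notation "H" => Cfsg.hermForm n F q
local notation "Vn" => (Fin n → F)
local notation "SU" => Cfsg.SU n F q
local notation "mat" A:max => (((A : SU) : Matrix.SpecialLinearGroup (Fin n) F) : Matrix (Fin n) (Fin n) F)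

/-- A module with a Hermitian trace form is isometric to the standard space. -/
theorem exists_isometry (C : Conj F q) {R : Type*} [CommRing R] [Algebra F R]
    (b : Module.Basis (Fin n) F R) (bar : R →+* R)
    (hbarσ : ∀ c, bar (algebraMap F R c) = algebraMap F R (C.σ c)) (hbar2 : ∀ y, bar (bar y) = y)
    (t : R →ₗ[F] F) (ht : ∀ y, t (bar y) = C.σ (t y)) (hnd : ∀ y, y ≠ 0 → ∃ r, t (r * y) ≠ 0) :
    ∃ J : R ≃ₗ[F] Vn, ∀ x y, H (J x) (J y) = t (x * bar y) := by
  classical
  set G : Matrix (Fin n) (Fin n) F := Matrix.of fun i j => t (bar (b i) * b j) with hG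
  have hGh : Unitary.adj C.σ G = G := by
    ext i j
    show C.σ (t (bar (b j) * b i)) = t (bar (b i) * b j)
    rw [← ht, map_mul, hbar2, mul_comm]
  have hdet : G.det ≠ 0 := by
    intro h
    obtain ⟨v, hv0, hv⟩ := Matrix.exists_mulVec_eq_zero_iff.mpr h
    have hy : (∑ j, v j • b j) ≠ 0 := fun hy =>
      hv0 (funext (Fintype.linearIndependent_iff.mp b.linearIndependent v hy))
    obtain ⟨r, hr⟩ := hnd _ hy
    apply hr
    have hbr : r = bar (∑ i, b.repr (bar r) i • b i) := by rw [b.sum_repr, hbar2]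
    rw [hbr, map_sum, Finset.sum_mul, map_sum]
    refine Finset.sum_eq_zero fun i _ => ?_
    rw [Algebra.smul_def, map_mul bar, hbarσ, ← Algebra.smul_def, smul_mul_assoc, map_smul, Finset.mul_sum,
      map_sum]
    have h2 : ∑ j, G i j * v j = 0 := congrFun hv i
    rw [Finset.sum_congr rfl (g := fun j => G i j * v j) fun j _ => by
      rw [mul_smul_comm, map_smul, smul_eq_mul, mul_comm]; rfl, h2, smul_zero]
  obtain ⟨P, hP⟩ := Unitary.exists_congr C.σ C.invol C.ne_id n G hGh hdet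
  have hPd : P.det ≠ 0 := fun h => hdet (by rw [← hP, Matrix.det_mul, h, mul_zero])
  have hinj : Function.Injective (P.mulVecLin ∘ₗ b.equivFun.toLinearMap) := by
    intro x y hxy
    exact b.equivFun.injective (Matrix.mulVec_injective_iff_isUnit.2
      ((Matrix.isUnit_iff_isUnit_det P).2 (isUnit_iff_ne_zero.2 hPd)) hxy)
  haveI : Module.Finite F R := Module.Finite.of_basis b
  let J := LinearMap.linearEquivOfInjective (P.mulVecLin ∘ₗ b.equivFun.toLinearMap) hinj
    (by rw [Module.finrank_eq_card_basis b, Module.finrank_fintype_fun_eq_card])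
  refine ⟨J, fun x y => ?_⟩
  have hJ : ∀ x, J x = P *ᵥ b.equivFun x := fun x => rfl
  rw [hJ, hJ, form_eq C]
  set a := b.equivFun x
  set c := b.equivFun y
  have hx : x = ∑ i, a i • b i := (b.sum_equivFun x).symm
  have hy : y = ∑ i, c i • b i := (b.sum_equivFun y).symm
  have hR : t (x * bar y) = ∑ j, ∑ k, a j * C.σ (c k) * G k j := by
    rw [hx, hy, map_sum, Finset.sum_mul, map_sum]
    refine Finset.sum_congr rfl fun j _ => ?_
    rw [Finset.mul_sum, map_sum]
    refine Finset.sum_congr rfl fun k _ => ?_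
    rw [Algebra.smul_def (c k), map_mul bar, hbarσ, ← Algebra.smul_def, smul_mul_smul_comm, map_smul, smul_eq_mul]
    show _ = _ * t (bar (b k) * b j)
    rw [mul_comm (b j)]
  rw [hR]
  have hG2 : ∀ k j, G k j = ∑ i, C.σ (P i k) * P i j := fun k j => by
    rw [← hP]; rfl
  simp only [hG2, Matrix.mulVec, dotProduct, map_sum, map_mul, Finset.mul_sum, Finset.sum_mul]
  rw [Finset.sum_comm]
  refine (Finset.sum_congr rfl fun k _ => Finset.sum_comm).trans ?_
  rw [Finset.sum_comm]
  refine Finset.sum_congr rfl fun j _ => Finset.sum_congr rfl fun k _ => Finset.sum_congr rfl fun i _ => ?_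
  ring

/-- A functional with prescribed values on an independent family. -/
theorem exists_functional {R : Type*} [AddCommGroup R] [Module F R] {ι : Type*} {f : ι → R}
    (hf : LinearIndependent F f) (v : ι → F) : ∃ ψ : R →ₗ[F] F, ∀ i, ψ (f i) = v i := by
  obtain ⟨ψ, hψ⟩ := LinearMap.exists_extend ((Module.Basis.span hf).constr ℕ v)
  refine ⟨ψ, fun i => ?_⟩
  have := LinearMap.congr_fun hψ (Module.Basis.span hf i)
  rw [LinearMap.comp_apply, Module.Basis.constr_basis, Submodule.subtype_apply,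
    Module.Basis.span_apply] at this
  exact this

/-- The regular unipotent element with the vectors used for the third generator. -/
theorem exists_config (C : Conj F q) (hn : 5 ≤ n) (hodd : Odd n) {l κ c : F} (hl : l * C.σ l = 1)
    (hl1 : l ≠ 1) (hc : c ≠ 0)
    (hcond : c * C.σ c * (l ^ 3 * κ + l * C.σ κ) ≠ (1 - l) ^ 4) :
    ∃ (u : SU) (e e₂ w₀ x y : Vn),
      (IsNilpotent (mat u - 1) ∧ (mat u - 1) ^ (n - 1) ≠ 0) ∧
      (mat u *ᵥ e = e ∧ H e e = 0 ∧ e ≠ 0) ∧ (mat u *ᵥ e₂ = e₂ + e ∧ H e₂ e = 0) ∧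
      (H w₀ e = 0 ∧ H (w₀ - mat u *ᵥ w₀) (w₀ - mat u *ᵥ w₀) = 1) ∧
      (H x x = 0 ∧ H (mat u *ᵥ x) x = κ ∧
        Submodule.span F (Set.range fun k : ℕ => mat (u ^ k) *ᵥ x) = ⊤) ∧
      (H y x = 0 ∧ H y (mat u *ᵥ x) = 0 ∧ H y y = 1 ∧ mat u *ᵥ y = l • y + c • (mat u *ᵥ x)) := by
  classical
  set h : F[X] := (X - 1) ^ n with hh
  have hX1 : (X - 1 : F[X]).Monic := by simpa using monic_X_sub_C (1 : F)
  have hdeg1 : (X - 1 : F[X]).natDegree = 1 := by simpa using natDegree_X_sub_C (1 : F)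
  have hm : h.Monic := hX1.pow n
  have hdeg : h.natDegree = n := by rw [hh, natDegree_pow, hdeg1, mul_one]
  let R := AdjoinRoot h
  let ι : F →+* R := algebraMap F R
  let z : R := AdjoinRoot.root h
  have hz1 : (z - 1) ^ n = 0 := by
    have h1 : AdjoinRoot.mk h ((X - 1 : F[X]) ^ n) = 0 := AdjoinRoot.mk_eq_zero.mpr (dvd_of_eq hh)
    simpa [map_pow, z] using h1
  have hzu : IsUnit z := by
    have := IsNilpotent.isUnit_one_add (r := z - 1) ⟨n, hz1⟩
    rwa [add_sub_cancel] at this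
  set zi : R := ((hzu.unit⁻¹ : Rˣ) : R) with hzi
  have hziz : zi * z = 1 := hzu.val_inv_mul
  have hev : eval₂ ((AdjoinRoot.of h).comp C.σ) zi h = 0 := by
    have h1 : (zi - 1) ^ n = (-zi) ^ n * (z - 1) ^ n := by
      rw [← mul_pow]
      congr 1
      linear_combination hziz
    show eval₂ _ zi ((X - 1 : F[X]) ^ n) = 0
    simp [eval₂_pow, h1, hz1]
  let bar : R →+* R := AdjoinRoot.lift ((AdjoinRoot.of h).comp C.σ) zi hev
  have hbz : bar z = zi := AdjoinRoot.lift_root hev
  have hbarσ : ∀ a, bar (ι a) = ι (C.σ a) := fun a => by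
    show bar (algebraMap F R a) = algebraMap F R (C.σ a)
    rw [AdjoinRoot.algebraMap_eq]
    exact AdjoinRoot.lift_of hev
  have hbi : bar zi = z := by
    have h1 := congrArg bar hziz
    rw [map_mul, hbz, map_one] at h1
    calc bar zi = bar zi * (zi * z) := by rw [hziz, mul_one]
      _ = z := by rw [← mul_assoc, h1, one_mul]
  have hbar2 : ∀ y, bar (bar y) = y := by
    intro y
    induction y using AdjoinRoot.induction_on with
    | ih f =>
      induction f using Polynomial.induction_on with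
      | C a =>
        rw [AdjoinRoot.mk_C, ← AdjoinRoot.algebraMap_eq]
        show bar (bar (ι a)) = ι a
        rw [hbarσ, hbarσ, C.invol]
      | add f g hf hg => simp only [map_add, hf, hg]
      | monomial m a ih =>
        rw [pow_succ, ← mul_assoc, map_mul, map_mul, map_mul, ih, AdjoinRoot.mk_X]
        show _ * bar (bar z) = _
        rw [hbz, hbi]
  -- the top element
  obtain ⟨j, hj⟩ := hodd
  set s : R := (z - 1) ^ (n - 1) with hs
  have hzs : z * s = s := by
    have h1 : (z - 1) * s = 0 := by rw [hs, ← pow_succ', show n - 1 + 1 = n by omega, hz1]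
    linear_combination h1
  have hzis : ∀ k, zi ^ k * s = s := by
    intro k
    induction k with
    | zero => simp
    | succ k ih =>
      have h1 : zi * s = s := by nth_rw 1 [← hzs]; rw [← mul_assoc, hziz, one_mul]
      rw [pow_succ, mul_assoc, h1, ih]
  have hbw : ∀ k, bar ((z - 1) ^ k) = (-1) ^ k * (zi ^ k * (z - 1) ^ k) := fun k => by
    rw [map_pow, map_sub, hbz, map_one, ← mul_pow, ← mul_pow]
    congr 1
    linear_combination hziz
  have hbs : bar s = s := by
    rw [hs, hbw, ← hs, hzis, show n - 1 = 2 * j by omega, pow_mul, neg_one_sq, one_pow, one_mul]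
  -- the element `A`
  have hl0 : l ≠ 0 := left_ne_zero_of_mul_eq_one hl
  have hσl : C.σ l = l⁻¹ := eq_inv_of_mul_eq_one_right hl
  have hu2 : IsUnit (z - ι l) := by
    have h1 : IsUnit (ι (1 - l)) := (isUnit_iff_ne_zero.2 (sub_ne_zero.2 (Ne.symm hl1))).map ι
    have := (show IsNilpotent (z - 1) from ⟨n, hz1⟩).isUnit_add_left_of_commute h1 (Commute.all _ _)
    rwa [map_sub, map_one, show (1 - ι l) + (z - 1) = z - ι l by ring] at this
  set A : R := z * ((hu2.unit⁻¹ : Rˣ) : R) with hA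
  have hAz : A * (z - ι l) = z := by rw [hA, mul_assoc, hu2.val_inv_mul, mul_one]
  have hbA : bar A = 1 - A := by
    have h2 := congrArg bar hAz
    rw [map_mul, map_sub, hbz, hbarσ, hσl] at h2
    have hll : ι l * ι l⁻¹ = 1 := by rw [← map_mul, mul_inv_cancel₀ hl0, map_one]
    have hu3 : IsUnit (zi - ι l⁻¹) := by
      have := hu2.map bar
      rwa [map_sub, hbz, hbarσ, hσl] at this
    refine hu3.mul_right_cancel ?_
    rw [h2]
    linear_combination (-(zi * ι l⁻¹)) * hAz + (-(ι l⁻¹) + A * ι l⁻¹) * hziz + (-(A * zi)) * hll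
  set D : R := A * (1 - A) with hD
  have hbD : bar D = D := by rw [hD, map_mul, map_sub, map_one, hbA]; ring
  have hDz : D * (z - ι l) ^ 2 = -(ι l * z) := by
    linear_combination ((1 - A) * (z - ι l) - z) * hAz
  -- the functional
  set ν : F := (c * C.σ c)⁻¹ with hν
  have hσν : C.σ ν = ν := by rw [hν, map_inv₀, map_mul, C.invol, mul_comm]
  have hli : ∀ (a1 a2 a3 a4 a5 a6 : F), (n = 5 → a6 = 0) →
      ι a1 + ι a2 * z + ι a3 * zi + ι a4 * A + ι a5 * D + ι a6 * s = 0 →
      a1 = 0 ∧ a2 = 0 ∧ a3 = 0 ∧ a4 = 0 ∧ a5 = 0 ∧ a6 = 0 := by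
    intro a1 a2 a3 a4 a5 a6 h6 h0
    set Q : F[X] := Polynomial.C (a3 * l ^ 2) + Polynomial.C (a1 * l ^ 2 - 2 * l * a3) * X
      + Polynomial.C (a3 - 2 * l * a1 + a2 * l ^ 2 - a4 * l - a5 * l) * X ^ 2
      + Polynomial.C (a1 - 2 * l * a2 + a4) * X ^ 3 + Polynomial.C a2 * X ^ 4
      + Polynomial.C (a6 * (1 - l) ^ 2) * (X - 1) ^ (n - 1) with hQ
    have hQ0 : AdjoinRoot.mk h Q = 0 := by
      have hs2 : s * (z - ι l) ^ 2 = ι (1 - l) ^ 2 * s := by
        rw [map_sub, map_one]
        linear_combination (z + 1 - 2 * ι l) * hzs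
      simp only [hQ, map_add, map_mul, map_pow, map_sub, map_one, AdjoinRoot.mk_C, AdjoinRoot.mk_X,
        map_ofNat]
      show ι a3 * ι l ^ 2 + (ι a1 * ι l ^ 2 - 2 * ι l * ι a3) * z +
        (ι a3 - 2 * ι l * ι a1 + ι a2 * ι l ^ 2 - ι a4 * ι l - ι a5 * ι l) * z ^ 2 +
        (ι a1 - 2 * ι l * ι a2 + ι a4) * z ^ 3 + ι a2 * z ^ 4 + ι a6 * (1 - ι l) ^ 2 * s = 0
      rw [map_sub, map_one] at hs2
      linear_combination (z * (z - ι l) ^ 2) * h0 - (ι a3 * (z - ι l) ^ 2) * hziz
        - (ι a4 * z * (z - ι l)) * hAz - (ι a5 * z) * hDz - (ι a6 * z) * hs2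
        - (ι a6 * (1 - ι l) ^ 2) * hzs
    rw [AdjoinRoot.mk_eq_zero, hh] at hQ0
    have hdX : ((X : F[X]) - 1) ^ (n - 1) = (X - Polynomial.C 1) ^ (n - 1) := by rw [map_one]
    have hQdeg : Q.natDegree < n := by
      have h4 : (Polynomial.C (a3 * l ^ 2) + Polynomial.C (a1 * l ^ 2 - 2 * l * a3) * X
        + Polynomial.C (a3 - 2 * l * a1 + a2 * l ^ 2 - a4 * l - a5 * l) * X ^ 2
        + Polynomial.C (a1 - 2 * l * a2 + a4) * X ^ 3 + Polynomial.C a2 * X ^ 4).natDegree ≤ 4 := by
        compute_degree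
      have h5 : (Polynomial.C (a6 * (1 - l) ^ 2) * (X - 1 : F[X]) ^ (n - 1)).natDegree ≤ n - 1 := by
        refine (natDegree_C_mul_le _ _).trans ?_
        rw [natDegree_pow, hdeg1, mul_one]
      have := natDegree_add_le_of_degree_le (n := n - 1) (h4.trans (by omega)) h5
      rw [← hQ] at this
      omega
    have hQz : Q = 0 := by
      refine Polynomial.eq_zero_of_dvd_of_natDegree_lt hQ0 ?_
      rw [natDegree_pow, hdeg1, mul_one]; exact hQdeg
    have ha6 : a6 = 0 := by
      rcases eq_or_ne n 5 with h5 | h5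
      · exact h6 h5
      have hc' := congrArg (fun p : F[X] => p.coeff (n - 1)) hQz
      simp only [hQ, coeff_add, coeff_C_mul, coeff_C, coeff_X_pow, coeff_X, coeff_zero, hdX] at hc'
      have hcz : ((X - Polynomial.C (1 : F)) ^ (n - 1)).coeff (n - 1) = 1 := by
        have := ((monic_X_sub_C (1 : F)).pow (n - 1)).coeff_natDegree
        rwa [natDegree_pow, natDegree_X_sub_C, mul_one] at this
      rw [hcz, if_neg (by omega), if_neg (by omega), if_neg (by omega), if_neg (by omega), if_neg (by omega)] at hc'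
      simpa [sub_ne_zero.2 (Ne.symm hl1)] using hc'
    subst ha6
    have hco : ∀ k, Q.coeff k = 0 := fun k => by rw [hQz, coeff_zero]
    have c0 := hco 0
    have c1 := hco 1
    have c2 := hco 2
    have c3 := hco 3
    have c4 := hco 4
    simp only [hQ, coeff_add, coeff_C_mul, coeff_C, coeff_X, coeff_X_pow] at c0 c1 c2 c3 c4
    norm_num at c0 c1 c2 c3 c4
    have e3 : a3 = 0 := c0.resolve_right hl0
    subst e3
    have e1 : a1 = 0 := by simpa [hl0] using c1
    subst e1
    subst c4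
    have e4 : a4 = 0 := by simpa using c3
    subst e4
    have e5 : a5 = 0 := by simpa [hl0] using c2
    exact ⟨rfl, rfl, rfl, rfl, e5, rfl⟩
  have hsmul : ∀ (a : F) (r : R), a • r = ι a * r := fun a r => Algebra.smul_def a r
  have hψ : ∃ ψ : R →ₗ[F] F, ψ 1 = 0 ∧ ψ z = κ ∧ ψ zi = C.σ κ ∧ ψ A = 0 ∧ ψ D = ν ∧ ψ s ≠ 0 ∧
      (∃ v, ψ s = v ∧ C.σ v = v) := by
    rcases eq_or_ne n 5 with h5 | h5
    · have hli5 : LinearIndependent F ![(1 : R), z, zi, A, D] := by
        rw [Fintype.linearIndependent_iff]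
        intro g hg
        simp only [Fin.sum_univ_five, hsmul] at hg
        obtain ⟨g0, g1, g2, g3, g4, -⟩ := hli (g 0) (g 1) (g 2) (g 3) (g 4) 0 (fun _ => rfl) (by
          rw [map_zero, zero_mul, add_zero]; simpa using hg)
        intro i; fin_cases i <;> assumption
      obtain ⟨ψ, hψ⟩ := exists_functional hli5 ![0, κ, C.σ κ, 0, ν]
      have hψ1 : ψ 1 = 0 := hψ 0
      have hψz : ψ z = κ := hψ 1
      have hψzi : ψ zi = C.σ κ := hψ 2
      have hψA : ψ A = 0 := hψ 3
      have hψD : ψ D = ν := hψ 4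
      -- the top element is a combination of the five
      set b1 : F := (1 - l) ^ 2 * (2 / l ^ 3 - 4 / l ^ 2) with hb1
      set b2 : F := (1 - l) ^ 2 with hb2
      set b3 : F := (1 - l) ^ 2 / l ^ 2 with hb3
      set b4 : F := (1 - l) ^ 2 * (-4 - 2 / l ^ 3 + 4 / l ^ 2 + 2 * l) with hb4
      set b5 : F := -(1 - l) ^ 6 / l ^ 3 with hb5
      have key : s = ι b1 + ι b2 * z + ι b3 * zi + ι b4 * A + ι b5 * D := by
        have hu4 : IsUnit (z * (z - ι l) ^ 2) := hzu.mul (hu2.pow 2)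
        refine hu4.mul_right_cancel ?_
        have e0 : b3 * l ^ 2 = b2 := by rw [hb3, hb2]; field_simp
        have e1 : b1 * l ^ 2 - 2 * l * b3 = -4 * b2 := by rw [hb1, hb3, hb2]; field_simp; ring
        have e2 : b3 - 2 * l * b1 + b2 * l ^ 2 - b4 * l - b5 * l = 6 * b2 := by
          rw [hb1, hb3, hb2, hb4, hb5]; field_simp; ring
        have e3 : b1 - 2 * l * b2 + b4 = -4 * b2 := by rw [hb1, hb2, hb4]; field_simp; ring
        replace e0 := congrArg ι e0
        replace e1 := congrArg ι e1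
        replace e2 := congrArg ι e2
        replace e3 := congrArg ι e3
        have eb2 : ι b2 = (1 - ι l) ^ 2 := by rw [hb2, map_pow, map_sub, map_one]
        simp only [map_add, map_sub, map_mul, map_pow, map_neg, map_ofNat] at e0 e1 e2 e3
        have hs4 : s = (z - 1) ^ 4 := by rw [hs, h5]
        rw [show s * (z * (z - ι l) ^ 2) = (1 - ι l) ^ 2 * s by
          linear_combination ((z - ι l) ^ 2) * hzs + (z + 1 - 2 * ι l) * hzs]
        rw [← eb2, hs4]
        linear_combination -(ι b3 * (z - ι l) ^ 2) * hziz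
          - (ι b4 * z * (z - ι l)) * hAz - (ι b5 * z) * hDz
          - e0 - z * e1 - z ^ 2 * e2 - z ^ 3 * e3
      have hval : ψ s = (1 - l) ^ 2 * (κ + C.σ κ / l ^ 2 - ν * (1 - l) ^ 4 / l ^ 3) := by
        rw [key]
        have : ι b1 = b1 • (1 : R) := by rw [hsmul, mul_one]
        rw [this, map_add, map_add, map_add, map_add, ← hsmul, ← hsmul, ← hsmul, ← hsmul, map_smul,
          map_smul, map_smul, map_smul, map_smul, hψ1, hψz, hψzi, hψA, hψD, hb2, hb3, hb5]
        simp only [smul_eq_mul]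
        field_simp
        ring
      refine ⟨ψ, hψ1, hψz, hψzi, hψA, hψD, ?_, ψ s, rfl, ?_⟩
      · rw [hval]
        refine mul_ne_zero (pow_ne_zero _ (sub_ne_zero.2 (Ne.symm hl1))) fun h0 => hcond ?_
        have hc' : C.σ c ≠ 0 := (map_ne_zero C.σ).2 hc
        rw [hν] at h0
        field_simp at h0
        linear_combination h0
      · rw [hval]
        simp only [map_mul, map_pow, map_sub, map_add, map_div₀, map_one, hσl, hσν, C.invol]
        field_simp
        ring
    · have hli6 : LinearIndependent F ![(1 : R), z, zi, A, D, s] := by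
        rw [Fintype.linearIndependent_iff]
        intro g hg
        simp only [Fin.sum_univ_six, hsmul] at hg
        obtain ⟨g0, g1, g2, g3, g4, g5⟩ := hli (g 0) (g 1) (g 2) (g 3) (g 4) (g 5) (fun h => absurd h h5)
          (by simpa using hg)
        intro i; fin_cases i <;> assumption
      obtain ⟨ψ, hψ⟩ := exists_functional hli6 ![0, κ, C.σ κ, 0, ν, 1]
      exact ⟨ψ, hψ 0, hψ 1, hψ 2, hψ 3, hψ 4, (hψ 5).trans_ne one_ne_zero, 1, hψ 5, map_one _⟩
  obtain ⟨ψ, hψ1, hψz, hψzi, hψA, hψD, hψs, v, hψv, hσv⟩ := hψ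
  obtain ⟨τ, hτ⟩ := exists_trace_one C
  let t : R →ₗ[F] F :=
    { toFun := fun p => τ * ψ p + C.σ (τ * ψ (bar p))
      map_add' := fun a b => by simp only [map_add, mul_add]; ring
      map_smul' := fun a p => by
        simp only [hsmul a p, map_mul, hbarσ, RingHom.id_apply, smul_eq_mul]
        rw [← hsmul, ← hsmul, map_smul, map_smul, smul_eq_mul, smul_eq_mul, map_mul, C.invol]
        ring }
  have ht : ∀ p, t (bar p) = C.σ (t p) := fun p => by
    show τ * ψ (bar p) + C.σ (τ * ψ (bar (bar p))) = C.σ (τ * ψ p + C.σ (τ * ψ (bar p)))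
    rw [hbar2, map_add, C.invol, add_comm]
  have tval : ∀ p a, ψ p = a → ψ (bar p) = C.σ a → t p = a := fun p a h1 h2 => by
    show τ * ψ p + C.σ (τ * ψ (bar p)) = a
    rw [h1, h2, map_mul, C.invol]
    linear_combination a * hτ
  have t1 : t 1 = 0 := tval _ _ hψ1 (by rw [map_one, hψ1, map_zero])
  have tz : t z = κ := tval _ _ hψz (by rw [hbz, hψzi])
  have tA : t A = 0 := tval _ _ hψA (by rw [hbA, map_sub, hψ1, hψA, sub_zero, map_zero])
  have tD : t D = ν := tval _ _ hψD (by rw [hbD, hψD, hσν])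
  have ts : t s = v := tval _ _ hψv (by rw [hbs, hψv, hσv])
  have hv0 : v ≠ 0 := hψv ▸ hψs
  have hnd : ∀ y : R, y ≠ 0 → ∃ r, t (r * y) ≠ 0 := by
    intro y hy
    obtain ⟨f, rfl⟩ := AdjoinRoot.mk_surjective y
    have hf0 : f ≠ 0 := by rintro rfl; exact hy (map_zero _)
    obtain ⟨w, hw, hw1⟩ := exists_eq_pow_rootMultiplicity_mul_and_not_dvd f hf0 1
    set k := rootMultiplicity 1 f
    have hkn : k < n := by
      by_contra hc'
      apply hy
      rw [AdjoinRoot.mk_eq_zero, hw, hh, map_one]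
      exact dvd_mul_of_dvd_left (pow_dvd_pow _ (by omega)) _
    have hw0 : w.eval 1 ≠ 0 := by rwa [Ne, ← IsRoot, ← dvd_iff_isRoot]
    refine ⟨(z - 1) ^ (n - 1 - k), ?_⟩
    have hprod : (z - 1) ^ (n - 1 - k) * AdjoinRoot.mk h f = (w.eval 1) • s := by
      rw [hw, map_mul, map_pow, map_sub, AdjoinRoot.mk_X, AdjoinRoot.mk_C, map_one, ← mul_assoc, ← pow_add,
        show n - 1 - k + k = n - 1 by omega, ← hs]
      obtain ⟨v', hv'⟩ := X_sub_C_dvd_sub_C_eval (a := (1 : F)) (p := w)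
      have h1 : AdjoinRoot.mk h w = AdjoinRoot.mk h (Polynomial.C (w.eval 1)) + (z - 1) * AdjoinRoot.mk h v' := by
        rw [show w = Polynomial.C (w.eval 1) + (X - Polynomial.C 1) * v' by rw [← hv']; ring, map_add, map_mul,
          map_sub, AdjoinRoot.mk_X, AdjoinRoot.mk_C, AdjoinRoot.mk_C, map_one]
        simp [z]
      have h2 : s * (z - 1) = 0 := by linear_combination hzs
      rw [h1, mul_add, ← mul_assoc, h2, zero_mul, add_zero, AdjoinRoot.mk_C, Algebra.smul_def,
        AdjoinRoot.algebraMap_eq, mul_comm]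
    rw [hprod, map_smul, ts]
    exact mul_ne_zero hw0 hv0
  let pb := AdjoinRoot.powerBasis hm.ne_zero
  let b := pb.basis.reindex (finCongr (show pb.dim = n from hdeg))
  obtain ⟨J, hJ⟩ := exists_isometry C b bar hbarσ hbar2 t ht hnd
  -- the element
  let M : Matrix (Fin n) (Fin n) F :=
    LinearMap.toMatrix' (J.toLinearMap ∘ₗ LinearMap.mulLeft F z ∘ₗ J.symm.toLinearMap)
  have hM : ∀ r, M *ᵥ J r = J (z * r) := fun r => by
    show LinearMap.toMatrix' _ *ᵥ J r = _
    rw [LinearMap.toMatrix'_mulVec]; simp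
  have hMN : ∀ k r, (M - 1) ^ k *ᵥ J r = J ((z - 1) ^ k * r) := by
    intro k
    induction k with
    | zero => intro r; simp
    | succ k ih =>
      intro r
      rw [pow_succ, ← Matrix.mulVec_mulVec, Matrix.sub_mulVec, Matrix.one_mulVec, hM, ← map_sub, ih,
        pow_succ]
      congr 1; ring
  have hnil : (M - 1) ^ n = 0 := Matrix.ext_iff_mulVec.2 fun v => by
    rw [← J.apply_symm_apply v, hMN, hz1, zero_mul, map_zero, Matrix.zero_mulVec]
  have hdetM : M.det = 1 := by
    obtain ⟨p, hp⟩ := CharP.exists F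
    have hpp : Fact p.Prime := ⟨CharP.char_is_prime F p⟩
    haveI : CharP (Matrix (Fin n) (Fin n) F) p :=
      haveI : Nonempty (Fin n) := ⟨⟨0, by omega⟩⟩
      inferInstance
    have h1 : M ^ p ^ n = 1 := by
      have h2 : (M - 1) ^ p ^ n = 0 := pow_eq_zero_of_le (Nat.lt_pow_self hpp.out.one_lt).le hnil
      rwa [sub_pow_char_pow_of_commute _ _ (Commute.one_right M), one_pow, sub_eq_zero] at h2
    have h3 : M.det ^ p ^ n = 1 := by rw [← Matrix.det_pow, h1, Matrix.det_one]
    have h4 : (M.det - 1) ^ p ^ n = 0 := by rw [sub_pow_char_pow, h3, one_pow, sub_self]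
    exact sub_eq_zero.1 (pow_eq_zero_iff (pow_ne_zero _ hpp.out.ne_zero) |>.1 h4)
  have hMU : ∀ v w : Vn, H (M *ᵥ v) (M *ᵥ w) = H v w := by
    intro v w
    rw [← J.apply_symm_apply v, ← J.apply_symm_apply w, hM, hM, hJ, hJ, map_mul bar, hbz]
    congr 1
    linear_combination (J.symm v * bar (J.symm w)) * hziz
  let u : SU := ⟨⟨M, hdetM⟩, hMU⟩
  have hu : ∀ r, mat u *ᵥ J r = J (z * r) := hM
  have hpow : ∀ k r, mat (u ^ k) *ᵥ J r = J (z ^ k * r) := by
    intro k
    induction k with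
    | zero => intro r; simp
    | succ k ih => intro r; rw [pow_succ, mul_mulVec, hu, ih, pow_succ, mul_assoc]
  have hsc : ∀ (a : F) (r : R), J (ι a * r) = a • J r := fun a r => by rw [← hsmul, map_smul]
  obtain ⟨d, -, hd⟩ := CfsgLib.Hermitian.exists_norm C.ne_id C.invol (a := ((-1 : F) ^ j * v)⁻¹)
    (inv_ne_zero (mul_ne_zero (pow_ne_zero _ (neg_ne_zero.2 one_ne_zero)) hv0))
    (by rw [map_inv₀, map_mul, map_pow, map_neg, map_one, hσv])
  refine ⟨u, J s, J ((z - 1) ^ (n - 2)), J (ι (-d) * (z - 1) ^ (j - 1)), J 1, J (ι c * A),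
    ⟨⟨n, hnil⟩, fun h0 => ?_⟩, ⟨by rw [hu, hzs], ?_, fun h0 => hv0 (by
      rw [← ts, (LinearEquiv.map_eq_zero_iff J).1 h0, map_zero])⟩, ⟨?_, ?_⟩, ⟨?_, ?_⟩, ⟨?_, ?_, ?_⟩, ⟨?_, ?_, ?_, ?_⟩⟩
  · have h1 : (M - 1) ^ (n - 1) *ᵥ J 1 = 0 := by
      rw [show (M - 1) ^ (n - 1) = 0 from h0, Matrix.zero_mulVec]
    rw [hMN, mul_one, LinearEquiv.map_eq_zero_iff, ← hs] at h1
    apply hv0
    rw [← ts, h1, map_zero]
  · rw [hJ, hbs, hs, ← pow_add, pow_eq_zero_of_le (by omega) hz1, map_zero]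
  · rw [hu, ← map_add]
    congr 1
    rw [hs, show n - 1 = n - 2 + 1 by omega, pow_succ]
    ring
  · rw [hJ, hbs, hs, ← pow_add, pow_eq_zero_of_le (by omega) hz1, map_zero]
  · rw [hJ, hbs, hs, mul_assoc, ← pow_add, pow_eq_zero_of_le (by omega) hz1, mul_zero, map_zero]
  · have e : ι (-d) * (z - 1) ^ (j - 1) - z * (ι (-d) * (z - 1) ^ (j - 1)) = ι d * (z - 1) ^ j := by
      rw [show j = j - 1 + 1 by omega, pow_succ, show j - 1 + 1 - 1 = j - 1 by omega, map_neg]
      ring
    rw [hu, ← map_sub, e, hJ, map_mul bar, hbarσ, hbw,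
      show ι d * (z - 1) ^ j * (ι (C.σ d) * ((-1) ^ j * (zi ^ j * (z - 1) ^ j))) =
        ι (d * C.σ d * (-1) ^ j) * (zi ^ j * ((z - 1) ^ (j + j))) by
          simp only [map_mul, map_pow, map_neg, map_one]; rw [pow_add]; ring,
      show j + j = n - 1 by omega, ← hs, hzis, ← hsmul, map_smul, ts, smul_eq_mul,
      show d * C.σ d = ((-1 : F) ^ j * v)⁻¹ by rw [← hd, mul_comm]]
    field_simp
  · rw [hJ, map_one, mul_one, t1]
  · rw [hu, hJ, map_one, mul_one, mul_one, tz]
  · rw [eq_top_iff]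
    intro v' _
    rw [← J.apply_symm_apply v', ← pb.basis.sum_repr (J.symm v'), map_sum]
    refine Submodule.sum_mem _ fun i _ => ?_
    rw [map_smul]
    refine Submodule.smul_mem _ _ (Submodule.subset_span ⟨i, ?_⟩)
    show mat (u ^ (i : ℕ)) *ᵥ J 1 = J (pb.basis i)
    rw [hpow, mul_one, pb.basis_eq_pow]
    rfl
  · rw [hJ, map_one, mul_one, ← hsmul, map_smul, tA, smul_zero]
  · rw [hu, hJ, mul_one, hbz, mul_assoc, ← hsmul, map_smul]
    have e : ι l * (A * zi) = A - 1 := by
      linear_combination (-zi) * hAz + (A - 1) * hziz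
    have e2 : A * zi = l⁻¹ • (A - 1) := by
      rw [hsmul, ← e, ← mul_assoc, ← map_mul, inv_mul_cancel₀ hl0, map_one, one_mul]
    rw [e2, map_smul, map_sub, tA, t1, sub_zero, smul_zero, smul_zero]
  · rw [hJ, map_mul bar, hbarσ, hbA, show ι c * A * (ι (C.σ c) * (1 - A)) = ι (c * C.σ c) * D by
      rw [hD, map_mul]; ring, ← hsmul, map_smul, tD, smul_eq_mul, hν,
      mul_inv_cancel₀ (mul_ne_zero hc ((map_ne_zero C.σ).2 hc))]
  · rw [hu, hu, mul_one, ← hsc l, ← hsc c, ← map_add]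
    congr 1
    linear_combination (ι c) * hAz

end CfsgLib.UGenN
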