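import Cfsg.Agent.UGenN.Copy
import Cfsg.Agent.UGenN.Model
import Cfsg.Agent.UGeom.Lines
import Cfsg.Agent.UGeom.Parabolic

/-!
`SU_n`, `n` odd, is generated by three conjugate regular unipotent elements.
-/

set_option autoImplicit false

namespace CfsgLib.UGenN

open Matrix CfsgLib.UGeom

variable {F : Type*} [Field F] [Fintype F] {q n : ℕ}

local notation "H" => Cfsg.hermForm n F q
local notation "Vn" => (Fin n → F)
local notation "SU" => Cfsg.SU n F q
local notation "GU" => Cfsg.GU n F q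
local notation "mat" A:max => (((A : SU) : Matrix.SpecialLinearGroup (Fin n) F) : Matrix (Fin n) (Fin n) F)
local notation "mg" A:max => (((A : GU) : GL (Fin n) F) : Matrix (Fin n) (Fin n) F)

/-- The determinant of a unitary map has norm one. -/
theorem GU_det_norm (C : Conj F q) (hn : 3 ≤ n) (h32 : ¬ (n = 3 ∧ q = 2)) (g : GU) :
    (mg g).det * C.σ (mg g).det = 1 := by
  let i₀ : Fin n := ⟨0, by omega⟩
  have he : H (Pi.single i₀ 1) (Pi.single i₀ 1) = 1 := by rw [form_single_right C]; simp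
  have hmem : g ∈ ext1 C i₀ he := by
    rw [exists_qrefl_prod C _ (qreflGU_mem_ext1 C hn h32 i₀ he)]
    trivial
  obtain ⟨l, hl, ht⟩ := hmem
  have hT : ∀ t ∈ TG C n, (mg t).det = 1 := by
    intro t ht
    induction ht using Subgroup.closure_induction with
    | mem x hx =>
      obtain ⟨v, c, hv, -, hx⟩ := hx
      rw [hx]
      change (qrefl n q v c).det = 1
      rw [qrefl_det, hv, mul_zero, add_zero]
    | one => exact Matrix.det_one
    | mul a b _ _ ha hb => rw [GU_coe_mul, Matrix.det_mul, ha, hb, one_mul]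
    | inv a _ ha =>
      have e := congrArg Matrix.det (GU_coe_mul a a⁻¹)
      rw [mul_inv_cancel, Matrix.det_mul, ha, one_mul] at e
      exact e.symm.trans Matrix.det_one
  have e : g = (g * (refl C he hl)⁻¹) * refl C he hl := by group
  rw [e, GU_coe_mul, Matrix.det_mul, hT _ ht, refl_det, one_mul]
  exact hl

/-- A unit vector orthogonal to a frame. -/
theorem exists_unit_perp {C : Conj F q} (N : NFrame C n) (hn : 3 < n) :
    ∃ w : Vn, H w w = 1 ∧ H w N.e = 0 ∧ H w N.m = 0 := by
  obtain ⟨R⟩ := UGen.exists_frame C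
  set p := proj3 R N with hp
  have hker : LinearMap.ker p ≠ ⊥ := by
    intro e
    have h1 := LinearMap.finrank_range_add_finrank_ker p
    rw [e, finrank_bot, add_zero, Module.finrank_fintype_fun_eq_card, Fintype.card_fin] at h1
    have h2 := Submodule.finrank_le (LinearMap.range p)
    rw [Module.finrank_fintype_fun_eq_card, Fintype.card_fin] at h2
    omega
  have hperp : ∀ w, p w = 0 → H w N.f = 0 ∧ H w N.m = 0 ∧ H w N.e = 0 := by
    intro w hw
    rw [hp, proj3_apply] at hw
    have h1 := R.vec_f (H w N.f) (H w N.m) (H w N.e)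
    have h2 := R.vec_m (H w N.f) (H w N.m) (H w N.e)
    have h3 := R.vec_e (H w N.f) (H w N.m) (H w N.e)
    rw [hw, form_zero_left] at h1 h2 h3
    exact ⟨h1.symm, h2.symm, h3.symm⟩
  obtain ⟨z, hz, hzz⟩ : ∃ z, p z = 0 ∧ H z z ≠ 0 := by
    by_contra hcon
    push Not at hcon
    obtain ⟨z, hz, hz0⟩ := Submodule.exists_mem_ne_zero_of_ne_bot hker
    rw [LinearMap.mem_ker] at hz
    refine hz0 (ext_form C fun t => ?_)
    rw [form_zero_left]
    set t' := t - incl R N (p t) with ht'
    have ht'0 : p t' = 0 := by rw [ht', map_sub, hp, proj3_incl, sub_self]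
    have hzt : H z t' = H z t := by
      rw [ht', form_sub_right C, form_incl, hp] at *
      rw [hz, form_zero_left, sub_zero]
    rw [← hzt]
    obtain ⟨τ, hτ⟩ := exists_trace_one C
    have key : ∀ a : F, a * H z t' + C.σ (a * H z t') = 0 := by
      intro a
      have h := hcon (a • z + t') (by rw [map_add, map_smul, hz, ht'0, smul_zero, add_zero])
      simp only [form_add_left, form_add_right C, form_smul_left, form_smul_right C, hcon z hz,
        hcon t' ht'0] at h
      rw [map_mul, form_conj C]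
      linear_combination h
    by_contra hne
    have h := key (τ / H z t')
    rw [div_mul_cancel₀ _ hne, hτ] at h
    exact one_ne_zero h
  obtain ⟨c, -, hc⟩ := CfsgLib.Hermitian.exists_norm C.ne_id C.invol (inv_ne_zero hzz)
    (by rw [map_inv₀, form_conj C])
  obtain ⟨h1, h2, h3⟩ := hperp z hz
  refine ⟨c • z, ?_, by rw [form_smul_left, h3, mul_zero], by rw [form_smul_left, h2, mul_zero]⟩
  rw [form_smul_left, form_smul_right C, ← mul_assoc, mul_comm c, hc, inv_mul_cancel₀ hzz]

/-- `SU` moves an isotropic vector and an orthogonal unit vector of a frame anywhere. -/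
theorem exists_SU_move {C : Conj F q} (hn : 5 ≤ n) (N : NFrame C n) {a b : Vn} (haa : H a a = 0)
    (hba : H b a = 0) (hbb : H b b = 1) (ha0 : a ≠ 0) :
    ∃ g : SU, mat g *ᵥ N.e = a ∧ mat g *ᵥ N.m = b := by
  classical
  let B : Vn →ₛₗ[C.σ] Vn →ₗ[F] F := LinearMap.mk₂'ₛₗ C.σ (RingHom.id F) (fun u v => H v u)
    (fun u u' v => form_add_right C v u u') (fun c u v => form_smul_right C c v u)
    (fun u v v' => form_add_left v v' u) (fun c u v => form_smul_left c v u)
  have hB : ∀ u v, B u v = H v u := fun u v => rfl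
  haveI : RingHomSurjective C.σ := ⟨fun t => ⟨C.σ t, C.invol t⟩⟩
  have hinj : Function.Injective B := fun u v h => ext_form C fun x => by
    have := LinearMap.congr_fun h x
    rw [hB, hB] at this
    rw [← form_conj C x u, this, form_conj C]
  have indep : ∀ u v : Vn, H u u = 0 → H v u = 0 → H v v = 1 → u ≠ 0 → LinearIndependent F ![u, v] := by
    intro u v huu hvu hvv hu0
    rw [LinearIndependent.pair_iff]
    intro s t hst
    have h := congrArg (fun x => H x v) hst
    simp only [form_add_left, form_smul_left, flip_zero C hvu, hvv, form_zero_left, mul_zero, zero_add,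
      mul_one] at h
    subst h
    rw [zero_smul, add_zero, smul_eq_zero] at hst
    exact ⟨hst.resolve_right hu0, rfl⟩
  have hne0 : N.e ≠ 0 := fun h => by
    have := N.fe
    rw [h, form_zero_right C] at this
    exact zero_ne_one this
  let bs := Module.Basis.span (indep N.e N.m N.ee N.me N.mm hne0)
  let φ : Submodule.span F (Set.range ![N.e, N.m]) →ₗ[F] Vn := bs.constr ℕ ![a, b]
  have hφb : ∀ i, φ (bs i) = ![a, b] i := fun i => bs.constr_basis ℕ _ i
  have hbs : ∀ i, ((bs i : Submodule.span F (Set.range ![N.e, N.m])) : Vn) = ![N.e, N.m] i := fun i => by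
    simp [bs, Module.Basis.span_apply]
  have hval : ∀ x : Submodule.span F (Set.range ![N.e, N.m]),
      (x : Vn) = bs.repr x 0 • N.e + bs.repr x 1 • N.m ∧ φ x = bs.repr x 0 • a + bs.repr x 1 • b := by
    intro x
    constructor
    · conv_lhs => rw [← bs.sum_repr x]
      simp only [Fin.sum_univ_two, Submodule.coe_add, Submodule.coe_smul, hbs]
      rfl
    · conv_lhs => rw [← bs.sum_repr x]
      simp only [Fin.sum_univ_two, map_add, map_smul, hφb]
      rfl
  have hφi : Function.Injective φ := by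
    rw [← LinearMap.ker_eq_bot, LinearMap.ker_eq_bot']
    intro x hx
    rw [(hval x).2] at hx
    obtain ⟨h0, h1⟩ := (LinearIndependent.pair_iff.1 (indep a b haa hba hbb ha0)) _ _ hx
    refine Subtype.ext ?_
    rw [(hval x).1, h0, h1, zero_smul, zero_smul, add_zero]
    rfl
  obtain ⟨g, hg, hgφ⟩ := CfsgLib.Forms.witt_hermitian (B := B) C.ne_id C.invol hinj
    (fun u v => by rw [hB, hB, form_conj C]) _ φ hφi (fun x x' => by
      rw [hB, hB, (hval x).1, (hval x).2, (hval x').1, (hval x').2]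
      simp only [form_add_left, form_add_right C, form_smul_left, form_smul_right C, haa, hba, hbb,
        flip_zero C hba, N.ee, N.me, N.mm, flip_zero C N.me])
  let M := LinearMap.toMatrix' (g : Vn →ₗ[F] Vn)
  let M' := LinearMap.toMatrix' (g.symm : Vn →ₗ[F] Vn)
  have hM : ∀ v, M *ᵥ v = g v := fun v => LinearMap.toMatrix'_mulVec _ v
  let U : GL (Fin n) F := ⟨M, M', by
    rw [← LinearMap.toMatrix'_comp]; simp, by
    rw [← LinearMap.toMatrix'_comp]; simp⟩
  let A : GU := ⟨U, fun x y => by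
    change H (M *ᵥ x) (M *ᵥ y) = H x y
    rw [hM, hM]
    exact hg y x⟩
  have hAe : mg A *ᵥ N.e = a := by
    change M *ᵥ N.e = a
    rw [hM, show N.e = ((bs 0 : Submodule.span F (Set.range ![N.e, N.m])) : Vn) from (hbs 0).symm,
      hgφ, hφb]
    rfl
  have hAm : mg A *ᵥ N.m = b := by
    change M *ᵥ N.m = b
    rw [hM, show N.m = ((bs 1 : Submodule.span F (Set.range ![N.e, N.m])) : Vn) from (hbs 1).symm,
      hgφ, hφb]
    rfl
  have hdd := GU_det_norm C (by omega) (by omega) A
  set d := (mg A).det with hd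
  have hd0 : d ≠ 0 := left_ne_zero_of_mul_eq_one hdd
  obtain ⟨w, hww, hwe, hwm⟩ := exists_unit_perp N (by omega)
  have hl : d⁻¹ * C.σ d⁻¹ = 1 := by rw [map_inv₀, ← mul_inv, hdd, inv_one]
  set B' := A * UGeom.refl C hww hl with hB'
  have hdet : (mg B').det = 1 := by
    rw [hB', GU_coe_mul, Matrix.det_mul, refl_det, ← hd, mul_inv_cancel₀ hd0]
  have hfix : ∀ t, H t w = 0 → mg (UGeom.refl C hww hl) *ᵥ t = t := fun t ht => by
    unfold UGeom.refl
    rw [qreflGU_mulVec, ht, mul_zero, zero_smul, add_zero]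
  refine ⟨⟨⟨mg B', hdet⟩, B'.2⟩, ?_, ?_⟩
  · change mg B' *ᵥ N.e = a
    rw [hB', GU_coe_mul, ← Matrix.mulVec_mulVec, hfix _ (flip_zero C hwe), hAe]
  · change mg B' *ᵥ N.m = b
    rw [hB', GU_coe_mul, ← Matrix.mulVec_mulVec, hfix _ (flip_zero C hwm), hAm]

/-- The three generators belonging to given parameters. -/
theorem exists_triple {C : Conj F q} (hn : 5 ≤ n) (hodd : Odd n) (R : UGen.Frame C) {β γ δ l κ c : F}
    (hβ : β + C.σ β + 1 * C.σ 1 = 0) (hδ : δ + C.σ δ + γ * C.σ γ = 0) (hl : l * C.σ l = 1)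
    (hl1 : l ≠ 1) (hc : c ≠ 0) (hκ : κ ≠ 0)
    (hcond : c * C.σ c * (l ^ 3 * κ + l * C.σ κ) ≠ (1 - l) ^ 4)
    (hγe : C.σ κ * l = γ) (hδe : κ * C.σ κ * (β + c - C.σ c) = δ) :
    ∃ u g h : SU, (IsNilpotent (mat u - 1) ∧ (mat u - 1) ^ (n - 1) ≠ 0) ∧
      ∃ N : NFrame C n,
        emb R N (R.up 1 β hβ) ∈ Subgroup.closure ({u, g * u * g⁻¹, h * u * h⁻¹} : Set SU) ∧
        emb R N (R.low γ δ hδ) ∈ Subgroup.closure ({u, g * u * g⁻¹, h * u * h⁻¹} : Set SU) ∧
        H (mat (h * u * h⁻¹) *ᵥ N.e) N.e ≠ 0 ∧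
        Submodule.span F (Set.range fun k : ℕ => mat ((h * u * h⁻¹) ^ k) *ᵥ N.e) = ⊤ := by
  obtain ⟨u, e, e₂, w₀, x, y, hreg, ⟨hue, hee, he0⟩, ⟨hue2, he2e⟩, ⟨hw0e, hmm⟩, ⟨hxx, hxu, hspan⟩,
    ⟨hyx, hyux, hyy, huy⟩⟩ := exists_config C hn hodd hl hl1 hc hcond
  set m := w₀ - mat u *ᵥ w₀ with hm
  have huw0e : H (mat u *ᵥ w₀) e = 0 := by
    conv_lhs => rw [← hue, SU_form u, hw0e]
  have hme : H m e = 0 := by rw [hm, form_sub_left, hw0e, huw0e, sub_zero]
  -- the source frame
  have hσκ : C.σ κ ≠ 0 := (map_ne_zero C.σ).2 hκ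
  have hyfx : H y (κ⁻¹ • (mat u *ᵥ x)) = 0 := by rw [form_smul_right C, hyux, mul_zero]
  let N₀ : NFrame C n := ⟨x, y, κ⁻¹ • (mat u *ᵥ x), hxx,
    by rw [form_smul_left, form_smul_right C, SU_form u, hxx, mul_zero, mul_zero],
    by rw [form_smul_left, hxu, inv_mul_cancel₀ hκ], hyy, hyx, hyfx⟩
  obtain ⟨g, hge, hgm⟩ := exists_SU_move hn N₀ hee hme hmm he0
  change mat g *ᵥ x = e at hge
  change mat g *ᵥ y = m at hgm
  let N : NFrame C n := ⟨e, m, mat g *ᵥ N₀.f, hee, by rw [SU_form g, N₀.ff],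
    by conv_lhs => rw [← hge, SU_form g]
       exact N₀.fe, hmm, hme,
    by conv_lhs => rw [← hgm, SU_form g]
       exact N₀.mf⟩
  set v := g * u * g⁻¹ with hv
  have hvg : ∀ t, mat v *ᵥ (mat g *ᵥ t) = mat g *ᵥ (mat u *ᵥ t) := fun t => by
    rw [hv, mul_mulVec, mul_mulVec, SU_inv_mulVec]
  have hve : mat v *ᵥ e = κ • N.f := by
    conv_lhs => rw [← hge, hvg]
    show _ = κ • (mat g *ᵥ (κ⁻¹ • (mat u *ᵥ x)))
    rw [Matrix.mulVec_smul, smul_smul, mul_inv_cancel₀ hκ, one_smul]
  have hvm : mat v *ᵥ m = l • m + (c * κ) • N.f := by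
    conv_lhs => rw [← hgm, hvg, huy, Matrix.mulVec_add, Matrix.mulVec_smul, Matrix.mulVec_smul, hgm,
      ← hvg, hge, hve, smul_smul]
  -- the transvection-like element
  have hee2 : H e e₂ = 0 := flip_zero C he2e
  have hew0 : H e w₀ = 0 := flip_zero C hw0e
  have he2m : H e₂ m = 0 := by
    have h1 : H (mat u *ᵥ e₂) (mat u *ᵥ w₀) = H e₂ w₀ := SU_form u _ _
    rw [hue2, form_add_left] at h1
    have h2 : H e (mat u *ᵥ w₀) = 0 := flip_zero C huw0e
    rw [h2, add_zero] at h1
    rw [hm, form_sub_right C, h1, sub_self]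
  have htr : H (mat u *ᵥ w₀) m - β + C.σ (H (mat u *ᵥ w₀) m - β) = 0 := by
    have h1 : H (mat u *ᵥ w₀) (mat u *ᵥ w₀) = H w₀ w₀ := SU_form u _ _
    have h2 := hmm
    rw [hm] at h2
    rw [hm, map_sub]
    simp only [form_sub_left, form_sub_right C, map_sub, form_conj C, map_one, one_mul, mul_one, h1] at h2 hβ ⊢
    linear_combination -h2 - hβ
  obtain ⟨t, ht⟩ := UGen.exists_trace_form C htr
  set w := w₀ + t • e₂ with hw
  obtain ⟨a, ha⟩ := exists_eich_param C w
  have hwe : H w e = 0 := by rw [hw, form_add_left, form_smul_left, hw0e, he2e, mul_zero, add_zero]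
  set E := eich C e w a hee hwe ha with hE
  set u' := E * u * E⁻¹ with hu'
  set K := Subgroup.closure ({u, E * u * E⁻¹, g * u * g⁻¹} : Set SU) with hK
  have huK : u ∈ K := Subgroup.subset_closure (by simp)
  have hu'K : E * u * E⁻¹ ∈ K := Subgroup.subset_closure (by simp)
  have hvK : v ∈ K := Subgroup.subset_closure (by simp [hv])
  have hβ' : β + C.σ β + H m m = 0 := by rw [hmm]; simpa using hβ
  set X := eich C e m β hee hme hβ' with hX
  have hXu : X * u * E = E * u := by
    refine SU_ext fun t' => ?_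
    have h1 : H (mat u *ᵥ t') e = H t' e := by conv_lhs => rw [← hue, SU_form u]
    have h2 : mat u *ᵥ w = w - m + t • e := by
      rw [hw, Matrix.mulVec_add, Matrix.mulVec_smul, hue2, hm]; module
    have h3 : H t' w = H (mat u *ᵥ t') w - H (mat u *ᵥ t') m + C.σ t * H t' e := by
      conv_lhs => rw [← SU_form u t' w, h2]
      rw [form_add_right C, form_sub_right C, form_smul_right C, h1]
    have h4 : H (mat u *ᵥ w) m = H (mat u *ᵥ w₀) m := by
      rw [hw, Matrix.mulVec_add, Matrix.mulVec_smul, hue2, form_add_left, form_smul_left, form_add_left,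
        he2m, flip_zero C hme]
      ring
    have h5 : H (mat u *ᵥ w) e = 0 := by conv_lhs => rw [← hue, SU_form u, hwe]
    rw [mul_mulVec, mul_mulVec, mul_mulVec, hE, hX, eich_mulVec, eich_mulVec, eich_mulVec,
      Matrix.mulVec_add, Matrix.mulVec_add, Matrix.mulVec_smul, Matrix.mulVec_smul, hue]
    simp only [form_add_left, form_smul_left, h1, h4, h5, hee, flip_zero C hme, mul_zero, add_zero]
    rw [h2]
    match_scalars
    all_goals try ring
    all_goals linear_combination (H t' e) * ht - h3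
  have hXK : X ∈ K := by
    have e1 : X = E * u * E⁻¹ * u⁻¹ := by rw [← hXu]; group
    rw [e1]
    exact mul_mem hu'K (inv_mem huK)
  have hX'K : v * X * v⁻¹ ∈ K := mul_mem (mul_mem hvK hXK) (inv_mem hvK)
  refine ⟨u, E, g, hreg, N, ?_, ?_, ?_, ?_⟩
  · obtain ⟨g1, g2, e1⟩ := emb_up R N 1 β hβ
    simp only [one_smul] at e1
    rw [e1]
    exact hXK
  · obtain ⟨g1, g2, e1⟩ := emb_low R N γ δ hδ
    rw [e1]
    convert hX'K using 1
    refine SU_ext fun t' => ?_
    obtain ⟨k1, k2, k3, e2⟩ := eich_conj C v e m β hee hme hβ'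
    rw [hX, e2, eich_mulVec, eich_mulVec, hve, hvm, ← hγe, ← hδe]
    simp only [form_smul_right C, form_add_right C, map_mul, C.invol]
    show _ = _
    have hσl : C.σ l = l⁻¹ := eq_inv_of_mul_eq_one_right hl
    match_scalars
    all_goals try ring
    all_goals (simp only [hσl]; ring)
  · show H (mat v *ᵥ e) e ≠ 0
    rw [hve, form_smul_left]
    have : H N.f e = 1 := N.fe
    rw [this, mul_one]
    exact hκ
  · show Submodule.span F (Set.range fun k : ℕ => mat (v ^ k) *ᵥ e) = ⊤
    have hk : ∀ k, mat (v ^ k) *ᵥ e = (mat g).mulVecLin (mat (u ^ k) *ᵥ x) := fun k => by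
      rw [hv, conj_pow, mul_mulVec, mul_mulVec, Matrix.mulVecLin_apply]
      conv_lhs => rw [← hge, SU_inv_mulVec]
    rw [show (fun k : ℕ => mat (v ^ k) *ᵥ e) = ⇑(mat g).mulVecLin ∘ fun k : ℕ => mat (u ^ k) *ᵥ x from
      funext hk, Set.range_comp, ← Submodule.map_span, hspan, Submodule.map_top, LinearMap.range_eq_top]
    exact fun t' => ⟨mat g⁻¹ *ᵥ t', SU_mulVec_inv g t'⟩

/-- The parameter `c`. -/
theorem exists_param (C : Conj F q) {τ₀ M : F} (hτ : τ₀ + C.σ τ₀ = 0) (hq : 3 ≤ q)
    (h3 : q = 3 → τ₀ ≠ 0) (M₀ : F) (hM : M ≠ 0) :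
    ∃ c : F, c ≠ 0 ∧ c - C.σ c = τ₀ ∧ c * C.σ c * M₀ ≠ M := by
  classical
  obtain ⟨t, ht⟩ := UGen.exists_trace_form C hτ
  by_contra hcon
  push Not at hcon
  have hfix : ∀ r : F, C.σ r = r → t + r - C.σ (t + r) = τ₀ := fun r hr => by
    rw [map_add, hr]; linear_combination ht
  have hM0 : M₀ ≠ 0 := by
    intro h0
    by_cases ht0 : t = 0
    · exact hM (by simpa [h0] using (hcon (t + 1) (by simp [ht0]) (hfix 1 (map_one _))).symm)
    · exact hM (by simpa [h0] using (hcon (t + 0) (by simpa using ht0) (hfix 0 (map_zero _))).symm)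
  set S : Finset F := Finset.univ.filter fun r => C.σ r = r with hS
  have hScard : S.card = q := by
    rw [← UGeom.card_fixed C, Nat.card_eq_fintype_card, Fintype.card_subtype, hS]
  set p : Polynomial F := (Polynomial.X + Polynomial.C t) * (Polynomial.X + Polynomial.C (C.σ t))
    - Polynomial.C (M / M₀) with hp
  have hpdeg : p.natDegree = 2 := by rw [hp]; compute_degree!
  have hp0 : p ≠ 0 := fun h => by rw [h] at hpdeg; simp at hpdeg
  have hsub : S ⊆ p.roots.toFinset ∪ (if τ₀ = 0 then {-t} else ∅) := by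
    intro r hr
    rw [hS, Finset.mem_filter] at hr
    rw [Finset.mem_union]
    by_cases h0 : t + r = 0
    · have hr' : r = -t := by linear_combination h0
      have : τ₀ = 0 := by
        have := hfix r hr.2
        rw [h0, map_zero, sub_zero] at this
        exact this.symm
      right
      simp [this, hr']
    · left
      rw [Multiset.mem_toFinset, Polynomial.mem_roots hp0, Polynomial.IsRoot, hp]
      have h := hcon (t + r) h0 (hfix r hr.2)
      rw [map_add, hr.2] at h
      simp only [Polynomial.eval_sub, Polynomial.eval_mul, Polynomial.eval_add, Polynomial.eval_X, Polynomial.eval_C]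
      rw [← h]
      field_simp
      ring
  have h2 : p.roots.toFinset.card ≤ 2 :=
    (Multiset.toFinset_card_le _).trans ((Polynomial.card_roots' p).trans hpdeg.le)
  have h4 := (Finset.card_le_card hsub).trans (Finset.card_union_le _ _)
  rw [hScard] at h4
  split_ifs at h4 with h
  · have : q ≠ 3 := fun e => h3 e h
    simp at h4
    omega
  · simp at h4
    omega

/-- `SU_n`, `n ≥ 5` odd, is generated by three conjugate regular unipotent elements. -/
theorem generated_three (C : Conj F q) (hn : 5 ≤ n) (hodd : Odd n) :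
    ∃ u g h : SU, (IsNilpotent (mat u - 1) ∧ (mat u - 1) ^ (n - 1) ≠ 0) ∧
      Subgroup.closure ({u, g * u * g⁻¹, h * u * h⁻¹} : Set SU) = ⊤ := by
  by_cases h2 : q = 2
  · obtain ⟨R⟩ := UGen.exists_frame C
    obtain ⟨w, hw, hsw, h20, -⟩ := exists_omega h2 C
    have hw3 : w ^ 3 = 1 := by linear_combination (w - 1) * hw
    have hs2 : C.σ (w ^ 2) = w := by rw [map_pow, hsw]; linear_combination w * hw3
    have hwn : w ^ 2 * C.σ (w ^ 2) = 1 := by rw [hs2]; linear_combination hw3
    have hw0 : w ≠ 0 := fun h => by simp [h] at hw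
    have hw1 : w ^ 2 ≠ 1 := by
      intro h
      have e1 : w = 0 := by linear_combination hw - h - h20
      exact hw0 e1
    have hβ : w ^ 2 + C.σ (w ^ 2) + 1 * C.σ 1 = 0 := by rw [hs2, map_one]; linear_combination hw
    have hδ : w ^ 2 + C.σ (w ^ 2) + w * C.σ w = 0 := by
      rw [hs2, hsw]; linear_combination hw + hw3
    obtain ⟨u, g, h, hreg, N, hX, hY, hve, hsp⟩ := exists_triple hn hodd R (β := w ^ 2) (γ := w)
      (δ := w ^ 2) (l := w ^ 2) (κ := w) (c := 1) hβ hδ hwn hw1 one_ne_zero hw0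
      (by
        rw [map_one, mul_one, one_mul, hsw, show (w ^ 2) ^ 3 * w + w ^ 2 * w ^ 2 = 0 by
          linear_combination ((w ^ 3 + 1) * w + w) * hw3 + w * h20]
        exact (pow_ne_zero _ (sub_ne_zero.2 (Ne.symm hw1))).symm)
      (by rw [hsw]; linear_combination w * hw3)
      (by rw [hsw, map_one]; linear_combination (w ^ 2) * hw3)
    refine ⟨u, g, h, hreg, ?_⟩
    obtain ⟨D, hDe, -⟩ := seed_of_pair_two h2 R N hw hβ hδ hX hY
    exact D.eq_top (v := h * u * h⁻¹) (by omega) (by omega) (Subgroup.subset_closure (by simp))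
      (by rw [hDe]; exact hve) (by rw [hDe]; exact hsp)
  · have hq3 : 3 ≤ q := by have := C.two_le; omega
    obtain ⟨R, β, γ, δ, hβ, hγ, hγ0, hδ, h3, htop⟩ := UGen.goodPair C h2
    obtain ⟨l, hl, hl1⟩ := exists_norm_one_ne C
    have hl0 : l ≠ 0 := left_ne_zero_of_mul_eq_one hl
    have hσl : C.σ l = l⁻¹ := eq_inv_of_mul_eq_one_right hl
    have hτ : δ / γ ^ 2 - β + C.σ (δ / γ ^ 2 - β) = 0 := by
      rw [map_one, mul_one] at hβ
      rw [hγ] at hδ
      rw [map_sub, map_div₀, map_pow, hγ]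
      field_simp
      linear_combination hδ - γ ^ 2 * hβ
    obtain ⟨c, hc, hct, hcM⟩ := exists_param C hτ hq3 (fun e => sub_ne_zero.2 (h3 e))
      (l ^ 3 * (γ * l) + l * C.σ (γ * l)) (pow_ne_zero 4 (sub_ne_zero.2 (Ne.symm hl1)))
    obtain ⟨u, g, h, hreg, N, hX, hY, hve, hsp⟩ := exists_triple hn hodd R (κ := γ * l) hβ hδ hl hl1 hc
      (mul_ne_zero hγ0 hl0) hcM (by rw [map_mul, hγ, hσl]; field_simp)
      (by
        rw [map_mul, hγ, hσl, add_sub_assoc, hct]
        field_simp
        ring)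
    refine ⟨u, g, h, hreg, ?_⟩
    obtain ⟨D, hDe, -⟩ := seed_of_pair R N htop hX hY
    exact D.eq_top (v := h * u * h⁻¹) (by omega) (by omega) (Subgroup.subset_closure (by simp))
      (by rw [hDe]; exact hve) (by rw [hDe]; exact hsp)

end CfsgLib.UGenN
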