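import Cfsg.Agent.UGen.Generic

/-!
When transvections, Eichler elements of one non-degenerate direction and a cyclic element
generate `SU_n`.
-/

set_option autoImplicit false

namespace CfsgLib.UGenN

open Matrix CfsgLib.UGeom

variable {F : Type*} [Field F] [Fintype F] {q n : ℕ}

local notation "H" => Cfsg.hermForm n F q
local notation "Vn" => (Fin n → F)
local notation "SU" => Cfsg.SU n F q
local notation "mat" A:max => (((A : SU) : Matrix.SpecialLinearGroup (Fin n) F) : Matrix (Fin n) (Fin n) F)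

theorem mul_mulVec (A B : SU) (v : Vn) : mat (A * B) *ᵥ v = mat A *ᵥ (mat B *ᵥ v) := by
  rw [SU_coe_mul, Matrix.mulVec_mulVec]

theorem flip_zero (C : Conj F q) {x y : Vn} (h : H x y = 0) : H y x = 0 := by
  rw [← form_conj C, h, map_zero]

theorem eich_zero (C : Conj F q) (v : Vn) (a : F) (hv : H v v = 0) (hzv : H (0 : Vn) v = 0)
    (ha : a + C.σ a + H (0 : Vn) 0 = 0) (hc : a + C.σ a = 0) :
    eich C v 0 a hv hzv ha = utv C v a hv hc := by
  refine SU_ext fun x => ?_
  rw [eich_mulVec, utv_mulVec, smul_zero, add_zero, form_zero_right C, sub_zero]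

theorem eich_mul (C : Conj F q) (v z z' : Vn) (a a' : F) (hv : H v v = 0) (hzv : H z v = 0)
    (hzv' : H z' v = 0) (ha : a + C.σ a + H z z = 0) (ha' : a' + C.σ a' + H z' z' = 0) :
    ∃ (h1 : H (z + z') v = 0)
      (h2 : a + a' - H z' z + C.σ (a + a' - H z' z) + H (z + z') (z + z') = 0),
      eich C v z a hv hzv ha * eich C v z' a' hv hzv' ha' = eich C v (z + z') (a + a' - H z' z) hv h1 h2 := by
  refine ⟨by rw [form_add_left, hzv, hzv', add_zero], ?_, SU_ext fun x => ?_⟩
  · simp only [map_add, map_sub, form_conj C, form_add_left, form_add_right C]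
    linear_combination ha + ha'
  · rw [mul_mulVec, eich_mulVec, eich_mulVec, eich_mulVec]
    simp only [form_add_left, form_add_right C, form_smul_left, hzv', hv, flip_zero C hzv, mul_zero, add_zero]
    module

theorem eich_conj (C : Conj F q) (A : SU) (v z : Vn) (a : F) (hv : H v v = 0) (hzv : H z v = 0)
    (ha : a + C.σ a + H z z = 0) :
    ∃ (h1 : H (mat A *ᵥ v) (mat A *ᵥ v) = 0) (h2 : H (mat A *ᵥ z) (mat A *ᵥ v) = 0)
      (h3 : a + C.σ a + H (mat A *ᵥ z) (mat A *ᵥ z) = 0),
      A * eich C v z a hv hzv ha * A⁻¹ = eich C (mat A *ᵥ v) (mat A *ᵥ z) a h1 h2 h3 := by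
  refine ⟨by rw [SU_form A, hv], by rw [SU_form A, hzv], by rw [SU_form A, ha], SU_ext fun x => ?_⟩
  have h : ∀ t : Vn, H (mat A⁻¹ *ᵥ x) t = H x (mat A *ᵥ t) := fun t => by
    rw [← SU_form A, SU_mulVec_inv]
  rw [mul_mulVec, mul_mulVec, eich_mulVec, eich_mulVec, Matrix.mulVec_add, Matrix.mulVec_add,
    Matrix.mulVec_smul, Matrix.mulVec_smul, SU_mulVec_inv, h, h]

/-- All Eichler elements with the given direction lie in the subgroup. -/
def EMem (C : Conj F q) (K : Subgroup (Cfsg.SU n F q)) (v z : Fin n → F) : Prop :=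
  ∀ a hv hzv ha, eich C v z a hv hzv ha ∈ K

/-- All transvections of the given centre lie in the subgroup. -/
def TMem (C : Conj F q) (K : Subgroup (Cfsg.SU n F q)) (v : Fin n → F) : Prop :=
  ∀ c hv hc, utv C v c hv hc ∈ K

section

variable {C : Conj F q} {K : Subgroup (Cfsg.SU n F q)}

theorem tmem_conj {v : Vn} (hv0 : H v v = 0) (h : TMem C K v) {A : SU} (hA : A ∈ K) :
    TMem C K (mat A *ᵥ v) := by
  intro c hv hc
  rw [← utv_conj C A v c hv0 hc]
  exact mul_mem (mul_mem hA (h c hv0 hc)) (inv_mem hA)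

theorem tmem_smul {v : Vn} (hv0 : H v v = 0) (h : TMem C K v) (a : F) : TMem C K (a • v) := by
  intro c hv hc
  rw [utv_smul C a v c hv0 hc]
  exact h _ _ _

theorem emem_of_one {v z : Vn} (hT : TMem C K v) {a : F} {hv : H v v = 0} {hzv : H z v = 0}
    {ha : a + C.σ a + H z z = 0} (h : eich C v z a hv hzv ha ∈ K) : EMem C K v z := by
  intro a' _ _ ha'
  have hd : a' - a + C.σ (a' - a) = 0 := by rw [map_sub]; linear_combination ha' - ha
  have hd' : a' - a + C.σ (a' - a) + H (0 : Vn) 0 = 0 := by rw [form_zero_left, add_zero]; exact hd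
  obtain ⟨h1, h2, e⟩ := eich_mul C v z 0 a (a' - a) hv hzv (form_zero_left v) ha hd'
  have e2 : eich C v z a' hv hzv ha' = eich C v z a hv hzv ha * eich C v 0 (a' - a) hv (form_zero_left v) hd' := by
    rw [e]
    refine SU_ext fun x => ?_
    rw [eich_mulVec, eich_mulVec, add_zero, form_zero_left, sub_zero, add_sub_cancel]
  rw [e2, eich_zero C v (a' - a) hv (form_zero_left v) hd' hd]
  exact mul_mem h (hT _ _ _)

theorem exists_eich_param (C : Conj F q) (z : Vn) : ∃ a : F, a + C.σ a + H z z = 0 := by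
  obtain ⟨t, ht⟩ := exists_trace_one C
  refine ⟨-(H z z * t), ?_⟩
  rw [map_neg, map_mul, form_conj C]
  linear_combination -(H z z) * ht

end

/-- The hypotheses of the criterion. -/
structure Seed (C : Conj F q) (K : Subgroup (Cfsg.SU n F q)) where
  /-- the first isotropic vector -/
  e : Fin n → F
  /-- the unit vector -/
  m : Fin n → F
  /-- the second isotropic vector -/
  f : Fin n → F
  ee : Cfsg.hermForm n F q e e = 0
  ff : Cfsg.hermForm n F q f f = 0
  fe : Cfsg.hermForm n F q f e = 1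
  mm : Cfsg.hermForm n F q m m = 1
  me : Cfsg.hermForm n F q m e = 0
  mf : Cfsg.hermForm n F q m f = 0
  emem : ∀ c : F, EMem C K e (c • m)
  tf : TMem C K f
  torus : ∀ r : F, r * C.σ r = 1 → ∃ A ∈ K,
    ((A : Matrix.SpecialLinearGroup (Fin n) F) : Matrix (Fin n) (Fin n) F) *ᵥ e = r • e ∧
    ((A : Matrix.SpecialLinearGroup (Fin n) F) : Matrix (Fin n) (Fin n) F) *ᵥ f = r • f ∧
    ((A : Matrix.SpecialLinearGroup (Fin n) F) : Matrix (Fin n) (Fin n) F) *ᵥ m = (r⁻¹) ^ 2 • m ∧
    ∀ x, Cfsg.hermForm n F q x e = 0 → Cfsg.hermForm n F q x f = 0 → Cfsg.hermForm n F q x m = 0 →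
      ((A : Matrix.SpecialLinearGroup (Fin n) F) : Matrix (Fin n) (Fin n) F) *ᵥ x = x

namespace Seed

variable {C : Conj F q} {K : Subgroup (Cfsg.SU n F q)} (D : Seed C K)

theorem ef : H D.e D.f = 1 := by rw [← form_conj C, D.fe, map_one]
theorem em : H D.e D.m = 0 := flip_zero C D.me
theorem fm : H D.f D.m = 0 := flip_zero C D.mf

theorem te : TMem C K D.e := by
  intro c hv hc
  have h := D.emem 0 c hv (by rw [zero_smul, form_zero_left]) (by rw [zero_smul, form_zero_left, add_zero]; exact hc)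
  simp only [zero_smul] at h
  rwa [eich_zero C D.e c hv _ _ hc] at h

/-- The component orthogonal to `e` and `f`. -/
def proj : (Fin n → F) →ₗ[F] (Fin n → F) where
  toFun x := x - H x D.f • D.e - H x D.e • D.f
  map_add' x y := by simp only [form_add_left]; module
  map_smul' c x := by simp only [form_smul_left, RingHom.id_apply]; module

theorem proj_apply (x : Vn) : D.proj x = x - H x D.f • D.e - H x D.e • D.f := rfl

theorem proj_e (x : Vn) : H (D.proj x) D.e = 0 := by
  rw [D.proj_apply, form_sub_left, form_sub_left, form_smul_left, form_smul_left, D.ee, D.fe]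
  ring

theorem proj_f (x : Vn) : H (D.proj x) D.f = 0 := by
  rw [D.proj_apply, form_sub_left, form_sub_left, form_smul_left, form_smul_left, D.ef, D.ff]
  ring

theorem decomp (x : Vn) : x = H x D.e • D.f + D.proj x + H x D.f • D.e := by
  rw [D.proj_apply]; module

theorem proj_of_perp {z : Vn} (he : H z D.e = 0) (hf : H z D.f = 0) : D.proj z = z := by
  rw [D.proj_apply, he, hf, zero_smul, zero_smul, sub_zero, sub_zero]

theorem proj_e_self : D.proj D.e = 0 := by
  rw [D.proj_apply, D.ee, D.ef, one_smul, zero_smul, sub_self, sub_zero]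

theorem proj_f_self : D.proj D.f = 0 := by
  rw [D.proj_apply, D.ff, D.fe, one_smul, zero_smul, sub_zero, sub_self]

/-- Isotropic vectors with all transvections in the subgroup. -/
def S : Set (Fin n → F) := {b | H b b = 0 ∧ TMem C K b}

theorem e_mem : D.e ∈ S (C := C) (K := K) := ⟨D.ee, D.te⟩
theorem f_mem : D.f ∈ S (C := C) (K := K) := ⟨D.ff, D.tf⟩

end Seed

theorem S_move {C : Conj F q} {K : Subgroup (Cfsg.SU n F q)} {b : Vn} (hb : b ∈ Seed.S (C := C) (K := K))
    {A : SU} (hA : A ∈ K) : mat A *ᵥ b ∈ Seed.S (C := C) (K := K) :=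
  ⟨by rw [SU_form A, hb.1], tmem_conj hb.1 hb.2 hA⟩

theorem S_smul {C : Conj F q} {K : Subgroup (Cfsg.SU n F q)} {b : Vn} (hb : b ∈ Seed.S (C := C) (K := K))
    (a : F) : a • b ∈ Seed.S (C := C) (K := K) :=
  ⟨by rw [form_smul_left, form_smul_right C, hb.1, mul_zero, mul_zero], tmem_smul hb.1 hb.2 a⟩

namespace Seed

variable {C : Conj F q} {K : Subgroup (Cfsg.SU n F q)} (D : Seed C K)

local notation "𝒮" => Seed.S (C := C) (K := K)

/-- The directions of Eichler elements at `e` in the subgroup. -/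
def Z : AddSubgroup (Fin n → F) where
  carrier := {z | H z D.e = 0 ∧ H z D.f = 0 ∧ EMem C K D.e z}
  zero_mem' := by
    refine ⟨form_zero_left _, form_zero_left _, ?_⟩
    have := D.emem 0
    rwa [zero_smul] at this
  add_mem' := by
    rintro z z' ⟨he, hf, hz⟩ ⟨he', hf', hz'⟩
    refine ⟨by rw [form_add_left, he, he', add_zero], by rw [form_add_left, hf, hf', add_zero], ?_⟩
    obtain ⟨a, ha⟩ := exists_eich_param C z
    obtain ⟨a', ha'⟩ := exists_eich_param C z'
    obtain ⟨h1, h2, e⟩ := eich_mul C D.e z z' a a' D.ee he he' ha ha'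
    exact emem_of_one D.te (h := e ▸ mul_mem (hz a D.ee he ha) (hz' a' D.ee he' ha'))
  neg_mem' := by
    rintro z ⟨he, hf, hz⟩
    have hne : H (-z) D.e = 0 := by rw [← neg_one_smul F z, form_smul_left, he, mul_zero]
    refine ⟨hne, by rw [← neg_one_smul F z, form_smul_left, hf, mul_zero], ?_⟩
    obtain ⟨a, ha⟩ := exists_eich_param C z
    have hnn : H (-z) (-z) = H z z := by
      rw [← neg_one_smul F z, form_smul_left, form_smul_right C, map_neg, map_one]; ring
    have hnz : H (-z) z = -H z z := by rw [← neg_one_smul F z, form_smul_left]; simp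
    have ha' : C.σ a + C.σ (C.σ a) + H (-z) (-z) = 0 := by rw [C.invol, hnn]; linear_combination ha
    obtain ⟨h1, h2, e⟩ := eich_mul C D.e z (-z) a (C.σ a) D.ee he hne ha ha'
    have e1 : eich C D.e z a D.ee he ha * eich C D.e (-z) (C.σ a) D.ee hne ha' = 1 := by
      rw [e]
      refine SU_ext fun x => ?_
      rw [eich_mulVec, Submonoid.coe_one, add_neg_cancel, hnz, form_zero_right C,
        show a + C.σ a - -H z z = 0 by linear_combination ha]
      simp
    refine emem_of_one D.te (a := C.σ a) (hv := D.ee) (hzv := hne) (ha := ha') ?_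
    rw [eq_inv_of_mul_eq_one_right e1]
    exact inv_mem (hz a D.ee he ha)

/-- The image of `f` under an Eichler element. -/
theorem eich_f {z : Vn} (a : F) (hze : H z D.e = 0) (ha : a + C.σ a + H z z = 0) :
    mat (eich C D.e z a D.ee hze ha) *ᵥ D.f = D.f + z + (a - H D.f z) • D.e := by
  rw [eich_mulVec, D.fe, one_smul, mul_one]

theorem exists_S_of_mem_Z {z : Vn} (hz : z ∈ D.Z) : ∃ b ∈ 𝒮, H b D.e = 1 ∧ D.proj b = z := by
  obtain ⟨he, hf, hz'⟩ := hz
  obtain ⟨a, ha⟩ := exists_eich_param C z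
  refine ⟨_, S_move D.f_mem (hz' a D.ee he ha), ?_, ?_⟩
  · rw [D.eich_f a he ha, form_add_left, form_add_left, form_smul_left, D.fe, he, D.ee]; ring
  · rw [D.eich_f a he ha, map_add, map_add, map_smul, D.proj_e_self, D.proj_f_self, D.proj_of_perp he hf,
      smul_zero, add_zero, zero_add]

theorem exists_normal {b : Vn} (hb : b ∈ 𝒮) (hbe : H b D.e = 1) (hz : H (D.proj b) (D.proj b) = 0) :
    D.f + D.proj b ∈ 𝒮 := by
  set z := D.proj b with hzd
  set α := H b D.f with hα
  have hbd : b = D.f + z + α • D.e := by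
    have := D.decomp b; rwa [hbe, one_smul] at this
  have hze := D.proj_e b
  have hzf := D.proj_f b
  rw [← hzd] at hze hzf
  have htr : α + C.σ α = 0 := by
    have h := hb.1
    rw [hbd] at h
    simp only [form_add_left, form_add_right C, form_smul_left, form_smul_right C, D.ff, D.fe, D.ef,
      D.ee, hz, hze, hzf, flip_zero C hze, flip_zero C hzf] at h
    linear_combination h
  have hc : -α + C.σ (-α) = 0 := by rw [map_neg]; linear_combination -htr
  have h2 := S_move hb (D.te (-α) D.ee hc)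
  rw [utv_mulVec, hbe, mul_one] at h2
  convert h2 using 1
  rw [hbd]; module

/-- The basic element coming from two orthogonal-complement translates. -/
theorem mixed_mem {z : Vn} (hze : H z D.e = 0) (hzf : H z D.f = 0) (hzz : H z z = 0)
    (hb : D.f + z ∈ 𝒮) {c : F} (hc : c + C.σ c = 0) :
    ∃ (h1 : H ((-(c * c)) • z) D.e = 0)
      (h2 : (0 : F) + C.σ 0 + H ((-(c * c)) • z) ((-(c * c)) • z) = 0)
      (h3 : c * c * c + C.σ (c * c * c) = 0),
      eich C D.e ((-(c * c)) • z) 0 D.ee h1 h2 * utv C z (c * c * c) hzz h3 ∈ K := by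
  have hσc : C.σ c = -c := by linear_combination hc
  have hez := flip_zero C hze
  have hfz := flip_zero C hzf
  refine ⟨by rw [form_smul_left, hze, mul_zero],
    by rw [map_zero, form_smul_left, form_smul_right C, hzz]; ring,
    by simp only [map_mul, hσc]; ring, ?_⟩
  have hnc : -c + C.σ (-c) = 0 := by rw [map_neg]; linear_combination -hc
  set P := utv C (D.f + z) c hb.1 hc * utv C D.f (-c) D.ff hnc with hP
  have hPK : P ∈ K := mul_mem (hb.2 _ _ _) (D.tf _ _ _)
  set T := utv C D.e c D.ee hc with hT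
  have hTK : T ∈ K := D.te _ _ _
  have key : eich C D.e ((-(c * c)) • z) 0 D.ee (by rw [form_smul_left, hze, mul_zero])
      (by rw [map_zero, form_smul_left, form_smul_right C, hzz]; ring) *
      utv C z (c * c * c) hzz (by simp only [map_mul, hσc]; ring) * P * T = T * P := by
    refine SU_ext fun x => ?_
    simp only [hP, hT, mul_mulVec, eich_mulVec, utv_mulVec, form_add_left, form_add_right C,
      form_smul_left, form_smul_right C, map_neg, map_mul, hσc, D.ee, D.ff, D.fe, D.ef, hze, hzf, hzz,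
      hez, hfz]
    module
  have e := eq_mul_inv_of_mul_eq key
  rw [eq_mul_inv_iff_mul_eq] at e
  have e2 := eq_mul_inv_of_mul_eq key
  rw [show eich C D.e ((-(c * c)) • z) 0 D.ee _ _ * utv C z (c * c * c) hzz _ = T * P * T⁻¹ * P⁻¹ by
    rw [← key]; group]
  exact mul_mem (mul_mem (mul_mem hTK hPK) (inv_mem hTK)) (inv_mem hPK)

theorem scale_step {b : Vn} (hb : b ∈ 𝒮) (hbe : H b D.e = 1) {r : F} (hr : r * C.σ r = 1) :
    ∃ b' ∈ 𝒮, H b' D.e = 1 ∧ D.proj b' = r⁻¹ • D.proj b := by
  obtain ⟨A, hA, hAe, hAf, hAm, hAfix⟩ := D.torus r hr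
  have hr0 : r ≠ 0 := left_ne_zero_of_mul_eq_one hr
  set z := D.proj b with hzd
  have hze := D.proj_e b
  have hzf := D.proj_f b
  rw [← hzd] at hze hzf
  set μ := H z D.m with hμ
  set α := H b D.f with hα
  have hbd : b = D.f + z + α • D.e := by
    have := D.decomp b; rwa [hbe, one_smul] at this
  set p := z - μ • D.m with hp
  have hAp : mat A *ᵥ p = p := hAfix p
    (by rw [hp, form_sub_left, form_smul_left, hze, D.me, mul_zero, sub_zero])
    (by rw [hp, form_sub_left, form_smul_left, hzf, D.mf, mul_zero, sub_zero])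
    (by rw [hp, form_sub_left, form_smul_left, D.mm, mul_one, sub_self])
  have hb1 := S_smul (S_move hb hA) r⁻¹
  have hb1' : r⁻¹ • (mat A *ᵥ b) = D.f + r⁻¹ • p + (r⁻¹ * μ * (r⁻¹) ^ 2) • D.m + α • D.e := by
    rw [hbd, show z = p + μ • D.m by rw [hp]; module]
    simp only [Matrix.mulVec_add, Matrix.mulVec_smul, hAe, hAf, hAm, hAp]
    match_scalars <;> field_simp
  set l := r⁻¹ * μ - r⁻¹ * μ * (r⁻¹) ^ 2 with hl
  obtain ⟨a, ha⟩ := exists_eich_param C (l • D.m)
  have hlm : H (l • D.m) D.e = 0 := by rw [form_smul_left, D.me, mul_zero]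
  have hb2 := S_move hb1 (D.emem l a D.ee hlm ha)
  have hbe1 : H (r⁻¹ • (mat A *ᵥ b)) D.e = 1 := by
    rw [hb1', form_add_left, form_add_left, form_add_left, form_smul_left, form_smul_left,
      form_smul_left, D.fe, D.me, D.ee, hp, form_sub_left, form_smul_left, hze, D.me]
    ring
  rw [eich_mulVec, hbe1, one_smul] at hb2
  refine ⟨_, hb2, ?_, ?_⟩
  · rw [form_add_left, form_add_left, hbe1, hlm, form_smul_left (a * 1 - _), D.ee]; ring
  · rw [map_add, map_add, map_smul (D.proj) (a * 1 - _), D.proj_e_self, smul_zero, add_zero, hb1']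
    simp only [map_add, map_smul, D.proj_e_self, D.proj_f_self, smul_zero, add_zero, zero_add]
    rw [D.proj_of_perp (z := D.m) D.me D.mf, D.proj_of_perp (z := p)
      (by rw [hp, form_sub_left, form_smul_left, hze, D.me, mul_zero, sub_zero])
      (by rw [hp, form_sub_left, form_smul_left, hzf, D.mf, mul_zero, sub_zero]), hl, hp]
    module

theorem iso_mem_Z {z : Vn} (hze : H z D.e = 0) (hzf : H z D.f = 0) (hzz : H z z = 0)
    (hb : D.f + z ∈ 𝒮) : z ∈ D.Z := by
  obtain ⟨r, hr, hr1⟩ := exists_norm_one_ne C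
  obtain ⟨c, hc0, hc⟩ := exists_trace_zero C
  have hr0 : r ≠ 0 := left_ne_zero_of_mul_eq_one hr
  set s := (r⁻¹ - 1) * (-(c * c)) with hs
  have hs0 : s ≠ 0 := mul_ne_zero (sub_ne_zero.2 fun h => hr1 (by rwa [inv_eq_one] at h))
    (neg_ne_zero.2 (mul_ne_zero hc0 hc0))
  have step : ∀ z : Vn, H z D.e = 0 → H z D.f = 0 → H z z = 0 → D.f + z ∈ 𝒮 → s • z ∈ D.Z := by
    intro z hze hzf hzz hb
    have hbe : H (D.f + z) D.e = 1 := by rw [form_add_left, D.fe, hze, add_zero]
    have hpz : D.proj (D.f + z) = z := by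
      rw [map_add, D.proj_f_self, zero_add, D.proj_of_perp hze hzf]
    obtain ⟨b', hb', hbe', hpb'⟩ := D.scale_step hb hbe hr
    rw [hpz] at hpb'
    have hN : r⁻¹ * C.σ r⁻¹ = 1 := by rw [map_inv₀, ← mul_inv, hr, inv_one]
    have hzz' : H (r⁻¹ • z) (r⁻¹ • z) = 0 := by
      rw [form_smul_left, form_smul_right C, hzz, mul_zero, mul_zero]
    have hb'' := D.exists_normal hb' hbe' (by rw [hpb', hzz'])
    rw [hpb'] at hb''
    obtain ⟨g1, g2, g3, hm1⟩ := D.mixed_mem hze hzf hzz hb hc
    obtain ⟨k1, k2, k3, hm2⟩ := D.mixed_mem (by rw [form_smul_left, hze, mul_zero] : H (r⁻¹ • z) D.e = 0)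
      (by rw [form_smul_left, hzf, mul_zero]) hzz' hb'' hc
    have hT : utv C (r⁻¹ • z) (c * c * c) hzz' k3 = utv C z (c * c * c) hzz g3 := by
      refine SU_ext fun x => ?_
      rw [utv_mulVec, utv_mulVec, form_smul_right C, smul_smul]
      congr 2
      linear_combination (c * c * c * H x z) * hN
    rw [hT] at hm2
    set E₁ := eich C D.e ((-(c * c)) • z) 0 D.ee g1 g2
    set E₂ := eich C D.e ((-(c * c)) • r⁻¹ • z) 0 D.ee k1 k2 with hE₂
    have hq : E₂ * E₁⁻¹ ∈ K := by
      have := mul_mem hm2 (inv_mem hm1)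
      rwa [_root_.mul_inv_rev, mul_assoc, mul_inv_cancel_left] at this
    have hse : H (s • z) D.e = 0 := by rw [form_smul_left, hze, mul_zero]
    refine ⟨hse, by rw [form_smul_left, hzf, mul_zero], ?_⟩
    have ha : (0 : F) + C.σ 0 + H (s • z) (s • z) = 0 := by
      rw [map_zero, form_smul_left, form_smul_right C, hzz]; ring
    refine emem_of_one D.te (a := 0) (hv := D.ee) (hzv := hse) (ha := ha) ?_
    obtain ⟨h1, h2, e⟩ := eich_mul C D.e (s • z) ((-(c * c)) • z) 0 0 D.ee hse g1 ha g2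
    have e2 : eich C D.e (s • z) 0 D.ee hse ha * E₁ = E₂ := by
      rw [e, hE₂]
      refine SU_ext fun x => ?_
      rw [eich_mulVec, eich_mulVec]
      simp only [hs, form_smul_left, form_smul_right C, form_add_right C, hzz, mul_zero, sub_zero, add_zero,
        map_sub, map_mul, map_neg, map_one]
      module
    rwa [← eq_mul_inv_of_mul_eq e2] at hq
  have hpow : ∀ j : ℕ, 1 ≤ j → s ^ j • z ∈ D.Z := by
    intro j hj
    induction j, hj using Nat.le_induction with
    | base => rw [pow_one]; exact step z hze hzf hzz hb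
    | succ j _ ih =>
      rw [pow_succ', mul_smul]
      have hzj : H (s ^ j • z) (s ^ j • z) = 0 := by
        rw [form_smul_left, form_smul_right C, hzz, mul_zero, mul_zero]
      obtain ⟨b, hb', hbe, hpb⟩ := D.exists_S_of_mem_Z ih
      refine step _ (by rw [form_smul_left, hze, mul_zero]) (by rw [form_smul_left, hzf, mul_zero]) hzj ?_
      have := D.exists_normal hb' hbe (by rw [hpb, hzj])
      rwa [hpb] at this
  have h1 := hpow (Fintype.card F - 1) (by have := Fintype.one_lt_card (α := F); omega)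
  rwa [FiniteField.pow_card_sub_one_eq_one s hs0, one_smul] at h1

theorem proj_mem_Z {b : Vn} (hb : b ∈ 𝒮) (hbe : H b D.e = 1) : D.proj b ∈ D.Z := by
  set z := D.proj b with hzd
  have hze := D.proj_e b
  have hzf := D.proj_f b
  rw [← hzd] at hze hzf
  set μ := H z D.m with hμ
  set p := z - μ • D.m with hp
  have hpm : H p D.m = 0 := by rw [hp, form_sub_left, form_smul_left, D.mm, mul_one, ← hμ, sub_self]
  obtain ⟨d, hd⟩ : ∃ d : F, d * C.σ d = -H p p := by
    by_cases h : H p p = 0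
    · exact ⟨0, by rw [h, zero_mul, neg_zero]⟩
    · obtain ⟨d, -, hd⟩ := CfsgLib.Hermitian.exists_norm C.ne_id C.invol (neg_ne_zero.2 h)
        (by rw [map_neg, form_conj C])
      exact ⟨d, by linear_combination hd⟩
  set l := d - μ with hl
  obtain ⟨a, ha⟩ := exists_eich_param C (l • D.m)
  have hlm : H (l • D.m) D.e = 0 := by rw [form_smul_left, D.me, mul_zero]
  have hb1 := S_move hb (D.emem l a D.ee hlm ha)
  rw [eich_mulVec, hbe, one_smul, mul_one] at hb1
  set b1 := b + l • D.m + (a - H b (l • D.m)) • D.e with hb1d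
  have hbe1 : H b1 D.e = 1 := by
    rw [hb1d, form_add_left, form_add_left, form_smul_left (a - _), hbe, hlm, D.ee]; ring
  have hpb1 : D.proj b1 = p + d • D.m := by
    rw [hb1d, map_add, map_add, map_smul, map_smul, D.proj_e_self, D.proj_of_perp (z := D.m) D.me D.mf,
      smul_zero, add_zero, ← hzd, hp, hl]
    module
  have hiso : H (D.proj b1) (D.proj b1) = 0 := by
    rw [hpb1]
    simp only [form_add_left, form_add_right C, form_smul_left, form_smul_right C, hpm, flip_zero C hpm, D.mm]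
    linear_combination hd
  have h1 := D.iso_mem_Z (D.proj_e b1) (D.proj_f b1) hiso (D.exists_normal hb1 hbe1 hiso)
  have h2 : l • D.m ∈ D.Z := ⟨hlm, by rw [form_smul_left, D.mf, mul_zero], D.emem l⟩
  have : z = D.proj b1 - l • D.m := by rw [hpb1, hp, hl]; module
  rw [this]
  exact sub_mem h1 h2

/-- The multipliers. -/
def M : Subfield F where
  carrier := {x | ∀ z ∈ D.Z, x • z ∈ D.Z}
  mul_mem' := fun {x y} hx hy z hz => by rw [mul_smul]; exact hx _ (hy z hz)
  one_mem' := fun z hz => by rwa [one_smul]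
  add_mem' := fun {x y} hx hy z hz => by rw [add_smul]; exact add_mem (hx z hz) (hy z hz)
  zero_mem' := fun z hz => by rw [zero_smul]; exact zero_mem _
  neg_mem' := fun {x} hx z hz => by rw [neg_smul]; exact neg_mem (hx z hz)
  inv_mem' := fun x hx => by
    rcases eq_or_ne x 0 with rfl | hx0
    · rw [_root_.inv_zero]; exact hx
    have h2 : ∀ k : ℕ, ∀ z ∈ D.Z, x ^ k • z ∈ D.Z := fun k => by
      induction k with
      | zero => intro z hz; rwa [pow_zero, one_smul]
      | succ k ih => intro z hz; rw [pow_succ, mul_smul]; exact ih _ (hx z hz)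
    have h3 : x ^ (Fintype.card F - 2) = x⁻¹ := by
      refine eq_inv_of_mul_eq_one_left ?_
      rw [← pow_succ, show Fintype.card F - 2 + 1 = Fintype.card F - 1 by
        have := Fintype.one_lt_card (α := F); omega]
      exact FiniteField.pow_card_sub_one_eq_one x hx0
    intro z hz
    rw [← h3]
    exact h2 _ z hz

theorem norm_one_mem_M {r : F} (hr : r * C.σ r = 1) : r ∈ D.M := by
  intro z hz
  obtain ⟨b, hb, hbe, hpb⟩ := D.exists_S_of_mem_Z hz
  have hr' : r⁻¹ * C.σ r⁻¹ = 1 := by rw [map_inv₀, ← mul_inv, hr, inv_one]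
  obtain ⟨b', hb', hbe', hpb'⟩ := D.scale_step hb hbe hr'
  rw [inv_inv, hpb] at hpb'
  rw [← hpb']
  exact D.proj_mem_Z hb' hbe'

theorem M_eq_top : D.M = ⊤ := by
  obtain ⟨ζ, hζ⟩ := IsCyclic.exists_generator (α := Fˣ)
  have hq := C.two_le
  have hord : orderOf ζ = (q + 1) * (q - 1) := by
    rw [orderOf_eq_card_of_forall_mem_zpowers hζ, Nat.card_units, Nat.card_eq_fintype_card, C.card,
      ← Nat.sq_sub_sq, one_pow]
  set ru : Fˣ := ζ ^ (q - 1) with hru
  have hr_ord : orderOf ru = q + 1 := by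
    rw [hru, orderOf_pow, hord, Nat.gcd_mul_left_left]
    exact Nat.mul_div_cancel _ (by omega)
  have hr : (ru : F) * C.σ (ru : F) = 1 := by
    rw [C.pow, ← pow_succ', ← Units.val_pow_eq_pow_val, ← hr_ord, pow_orderOf_eq_one, Units.val_one]
  rcases CfsgLib.UGen.subfield_card D.M with h | ⟨d, hd2, hd, hQ2, hpT⟩
  · exact h
  exfalso
  have h1 := hpT _ (D.norm_one_mem_M hr) ru.ne_zero
  have h2 : q + 1 ∣ Nat.card D.M - 1 := by
    rw [← hr_ord]
    exact orderOf_dvd_of_pow_eq_one (Units.ext (by simpa using h1))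
  have h3 := Nat.le_of_dvd (by omega) h2
  have h4 : Nat.card D.M ^ 2 ≤ q ^ 2 := by
    rw [← C.card, hd]
    exact Nat.pow_le_pow_right (by omega) hd2
  have h5 := (Nat.pow_le_pow_iff_left two_ne_zero).1 h4
  omega

include D in
/-- The criterion. -/
theorem eq_top (hn : 3 ≤ n) (h32 : ¬ (n = 3 ∧ q = 2)) {v : SU} (hv : v ∈ K)
    (hve : H (mat v *ᵥ D.e) D.e ≠ 0)
    (hspan : Submodule.span F (Set.range fun k : ℕ => mat (v ^ k) *ᵥ D.e) = ⊤) : K = ⊤ := by
  obtain ⟨c, hc0, hc⟩ := exists_trace_zero C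
  -- vectors of `S` not orthogonal to `e`
  set U := Submodule.span F {b : Vn | b ∈ 𝒮 ∧ H b D.e = 1} with hU
  have hUmem : ∀ b ∈ 𝒮, H b D.e ≠ 0 → b ∈ U := by
    intro b hb hbe
    have h1 : (H b D.e)⁻¹ • b ∈ U := Submodule.subset_span
      ⟨S_smul hb _, by rw [form_smul_left, inv_mul_cancel₀ hbe]⟩
    have h2 := U.smul_mem (H b D.e) h1
    rwa [smul_smul, mul_inv_cancel₀ hbe, one_smul] at h2
  let x : ℕ → Vn := fun k => mat (v ^ k) *ᵥ D.e
  have hxS : ∀ k, x k ∈ 𝒮 := fun k => S_move D.e_mem (pow_mem hv k)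
  have hnb : ∀ k, H (x (k + 1)) (x k) ≠ 0 := fun k => by
    show H (mat (v ^ (k + 1)) *ᵥ D.e) (mat (v ^ k) *ᵥ D.e) ≠ 0
    rw [pow_succ, mul_mulVec, SU_form]
    exact hve
  have hP : ∀ k, ∃ y ∈ 𝒮, H (x k) y ≠ 0 ∧ H y D.e ≠ 0 := by
    intro k
    induction k with
    | zero =>
      refine ⟨D.f, D.f_mem, ?_, by rw [D.fe]; exact one_ne_zero⟩
      show H (mat (v ^ 0) *ᵥ D.e) D.f ≠ 0
      rw [pow_zero, Submonoid.coe_one, Matrix.SpecialLinearGroup.coe_one, Matrix.one_mulVec, D.ef]
      exact one_ne_zero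
    | succ k ih =>
      obtain ⟨w, hw, hxw, hwe⟩ := ih
      by_cases hxe : H (x k) D.e = 0
      swap
      · exact ⟨x k, hxS k, hnb k, hxe⟩
      by_cases h : H (x (k + 1)) w = 0
      swap
      · exact ⟨w, hw, h, hwe⟩
      refine ⟨_, S_move (hxS k) (hw.2 c hw.1 hc), ?_, ?_⟩
      · rw [utv_mulVec, form_add_right C, form_smul_right C, h, mul_zero, add_zero]
        exact hnb k
      · rw [utv_mulVec, form_add_left, form_smul_left, hxe, zero_add]
        exact mul_ne_zero (mul_ne_zero hc0 hxw) hwe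
  have hxU : ∀ k, x k ∈ U := by
    intro k
    obtain ⟨y, hy, hxy, hye⟩ := hP k
    by_cases hxe : H (x k) D.e = 0
    swap
    · exact hUmem _ (hxS k) hxe
    have h1 := S_move (hxS k) (hy.2 c hy.1 hc)
    have h2 : mat (utv C y c hy.1 hc) *ᵥ x k ∈ U := hUmem _ h1 (by
      rw [utv_mulVec, form_add_left, form_smul_left, hxe, zero_add]
      exact mul_ne_zero (mul_ne_zero hc0 hxy) hye)
    rw [utv_mulVec] at h2
    simpa using U.sub_mem h2 (U.smul_mem (c * H (x k) y) (hUmem y hy hye))
  have hUtop : U = ⊤ := by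
    rw [eq_top_iff, ← hspan, Submodule.span_le]
    rintro _ ⟨k, rfl⟩
    exact hxU k
  -- all directions
  let Zm : Submodule F Vn :=
    { D.Z.toAddSubmonoid with
      smul_mem' := fun a z hz => (D.M_eq_top ▸ Subfield.mem_top a : a ∈ D.M) z hz }
  have hZ : ∀ z : Vn, H z D.e = 0 → H z D.f = 0 → z ∈ D.Z := by
    intro z he hf
    have h1 : U ≤ Zm.comap D.proj := by
      rw [hU, Submodule.span_le]
      rintro b ⟨hb, hbe⟩
      exact D.proj_mem_Z hb hbe
    have h2 : D.proj z ∈ Zm := h1 (hUtop ▸ Submodule.mem_top)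
    rwa [D.proj_of_perp he hf] at h2
  have hne : ∀ y : Vn, H y y = 0 → H y D.e ≠ 0 → y ∈ 𝒮 := by
    intro y hy hye
    set y' := (H y D.e)⁻¹ • y with hy'd
    have hy'e : H y' D.e = 1 := by rw [hy'd, form_smul_left, inv_mul_cancel₀ hye]
    have hy' : H y' y' = 0 := by rw [hy'd, form_smul_left, form_smul_right C, hy, mul_zero, mul_zero]
    set z := D.proj y'
    set α := H y' D.f
    have hd : y' = D.f + z + α • D.e := by
      have := D.decomp y'; rwa [hy'e, one_smul] at this
    have hze : H z D.e = 0 := D.proj_e y'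
    have hzf : H z D.f = 0 := D.proj_f y'
    have ha : α + C.σ α + H z z = 0 := by
      rw [hd] at hy'
      simp only [form_add_left, form_add_right C, form_smul_left, form_smul_right C, D.ff, D.fe, D.ef,
        D.ee, hze, hzf, flip_zero C hze, flip_zero C hzf] at hy'
      linear_combination hy'
    have h := S_move D.f_mem ((hZ z hze hzf).2.2 α D.ee hze ha)
    rw [D.eich_f α hze ha, flip_zero C hzf, sub_zero, ← hd] at h
    have h2 := S_smul h (H y D.e)
    rwa [hy'd, smul_smul, mul_inv_cancel₀ hye, one_smul] at h2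
  refine eq_top_of_utv C hn h32 K fun w d hw hd => ?_
  suffices h : w ∈ 𝒮 from h.2 d hw hd
  by_cases hwe : H w D.e = 0
  swap
  · exact hne w hw hwe
  by_cases hw0 : w = 0
  · subst hw0
    refine ⟨hw, fun c' hv' hc' => ?_⟩
    convert one_mem K
    exact SU_ext fun t => by rw [utv_mulVec]; simp
  obtain ⟨b, hb, hbe, hwb⟩ : ∃ b ∈ 𝒮, H b D.e ≠ 0 ∧ H w b ≠ 0 := by
    by_cases hwf : H w D.f = 0
    swap
    · exact ⟨D.f, D.f_mem, by rw [D.fe]; exact one_ne_zero, hwf⟩
    obtain ⟨t, ht⟩ := exists_form_ne_zero C hw0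
    have hte := D.proj_e t
    have hwz : H w (D.proj t) ≠ 0 := by
      rw [D.proj_apply, form_sub_right C, form_sub_right C, form_smul_right C, form_smul_right C, hwe, hwf]
      simpa using ht
    obtain ⟨a, ha⟩ := exists_eich_param C (D.proj t)
    refine ⟨_, S_move D.f_mem ((hZ _ hte (D.proj_f t)).2.2 a D.ee hte ha), ?_, ?_⟩
    · rw [D.eich_f a hte ha, form_add_left, form_add_left, form_smul_left, D.fe, hte, D.ee]
      simp
    · rw [D.eich_f a hte ha, form_add_right C, form_add_right C, form_smul_right C, hwf, hwe]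
      simpa using hwz
  have hnc : -c + C.σ (-c) = 0 := by rw [map_neg]; linear_combination -hc
  have h1 : mat (utv C b c hb.1 hc) *ᵥ w ∈ 𝒮 := hne _ (by rw [SU_form, hw]) (by
    rw [utv_mulVec, form_add_left, form_smul_left, hwe, zero_add]
    exact mul_ne_zero (mul_ne_zero hc0 hwb) hbe)
  have h2 := S_move h1 (hb.2 (-c) hb.1 hnc)
  rw [utv_mulVec, utv_mulVec, form_add_left, form_smul_left, hb.1] at h2
  convert h2 using 1
  module

end Seed

end CfsgLib.UGenN
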