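import Cfsg.Agent.UGenN.Embed
import Cfsg.Agent.UGen.Small

/-!
Two elements of the copy of `SU₃` yield the hypotheses of the criterion.
-/

set_option autoImplicit false

namespace CfsgLib.UGenN

open Matrix CfsgLib.UGeom

variable {F : Type*} [Field F] [Fintype F] {q n : ℕ}

local notation "SU" => Cfsg.SU n F q
local notation "SU3" => Cfsg.SU 3 F q
local notation "H" => Cfsg.hermForm n F q
local notation "mat₃" A:max => (((A : SU3) : Matrix.SpecialLinearGroup (Fin 3) F) : Matrix (Fin 3) (Fin 3) F)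

variable {C : Conj F q}

theorem seed_of_pair {K : Subgroup SU} (R : UGen.Frame C) (N : NFrame C n) {u v : SU3}
    (htop : Subgroup.closure ({u, v} : Set SU3) = ⊤) (hu : emb R N u ∈ K) (hv : emb R N v ∈ K) :
    ∃ D : Seed C K, D.e = N.e ∧ D.m = N.m := by
  refine seed_of_copy R N fun A => ?_
  have h : Subgroup.closure ({u, v} : Set SU3) ≤ K.comap (emb R N) := by
    rw [Subgroup.closure_le]
    rintro x (rfl | rfl)
    exacts [hu, hv]
  exact h (htop ▸ Subgroup.mem_top A)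

theorem exists_omega (h2 : q = 2) (C : Conj F q) :
    ∃ w : F, w ^ 2 + w + 1 = 0 ∧ C.σ w = w ^ 2 ∧ (2 : F) = 0 ∧
      ∀ c : F, c = 0 ∨ c = 1 ∨ c = w ∨ c = 1 + w := by
  subst h2
  haveI : CharP F 2 := UGen.char_of_card 2 2 Nat.prime_two two_ne_zero C.card
  have h20 : (2 : F) = 0 := by exact_mod_cast CharP.cast_eq_zero F 2
  obtain ⟨w, hw, hw1⟩ := exists_norm_one_ne C
  rw [C.pow] at hw
  have hq : w ^ 2 + w + 1 = 0 := by
    apply mul_left_cancel₀ (sub_ne_zero.2 hw1)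
    linear_combination hw
  refine ⟨w, hq, C.pow w, h20, fun c => ?_⟩
  have hc := FiniteField.pow_card c
  rw [C.card] at hc
  norm_num at hc
  have h : c * (c - 1) * ((c - w) * (c - (1 + w))) = 0 := by
    linear_combination hc + (c * (c - 1)) * hq + (-(c ^ 2 * (c - 1)) * (w + 1) - c * (c - 1)) * h20
  simp only [mul_eq_zero, sub_eq_zero] at h
  tauto

theorem vec_congr₃ {R : UGen.Frame C} {x y z x' y' z' : F} (hx : x = x') (hy : y = y') (hz : z = z') :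
    R.vec x y z = R.vec x' y' z' := by rw [hx, hy, hz]

theorem seed_of_pair_two {K : Subgroup SU} (h2 : q = 2) (R : UGen.Frame C) (N : NFrame C n) {w : F}
    (hw : w ^ 2 + w + 1 = 0) (h1 : w ^ 2 + C.σ (w ^ 2) + 1 * C.σ 1 = 0)
    (hd : w ^ 2 + C.σ (w ^ 2) + w * C.σ w = 0)
    (hu : emb R N (R.up 1 (w ^ 2) h1) ∈ K) (hv : emb R N (R.low w (w ^ 2) hd) ∈ K) :
    ∃ D : Seed C K, D.e = N.e ∧ D.m = N.m := by
  obtain ⟨w', hw', hsw', h20, hcases'⟩ := exists_omega h2 C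
  have hsw : C.σ w = w ^ 2 := by rw [C.pow, h2]
  have hw3 : w ^ 3 = 1 := by linear_combination (w - 1) * hw
  have hr : w * C.σ w = 1 := by rw [hsw]; linear_combination hw3
  have hcases : ∀ c : F, c = 0 ∨ c = 1 ∨ c = w ∨ c = 1 + w := by
    intro c
    rcases hcases' w with h | h | h | h
    · exact absurd hw (by simp [h])
    · exact absurd hw (by rw [h]; norm_num; intro h3; exact one_ne_zero (α := F) (by linear_combination h3 - h20))
    · rw [h]; exact hcases' c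
    · rw [h]
      rcases hcases' c with e | e | e | e
      · exact Or.inl e
      · exact Or.inr (Or.inl e)
      · exact Or.inr (Or.inr (Or.inr (by rw [e]; linear_combination -h20)))
      · exact Or.inr (Or.inr (Or.inl e))
  set X := R.up 1 (w ^ 2) h1 with hX
  set Y := R.low w (w ^ 2) hd with hY
  let L : Subgroup SU3 := K.comap (emb R N)
  have hXL : X ∈ L := hu
  have hYL : Y ∈ L := hv
  have hs2 : C.σ (w ^ 2) = w := by rw [map_pow, hsw]; linear_combination w * hw3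
  -- scalars
  have hscal : ∀ x y z, mat₃ (X * Y * X * Y * X * Y * X * Y) *ᵥ R.vec x y z =
      R.vec (w * x) ((w⁻¹) ^ 2 * y) (w * z) := by
    intro x y z
    rw [show (w⁻¹) ^ 2 = w by
      rw [inv_eq_of_mul_eq_one_right (show w * w ^ 2 = 1 by linear_combination hw3)]
      linear_combination w * hw3]
    simp only [hX, hY, UGen.mul_mulVec, R.up_vec, R.low_vec, map_one, hsw]
    refine vec_congr₃ ?_ ?_ ?_
    · linear_combination (((1) + (-36) * w ^ 1 + (40) * w ^ 2 + (6) * w ^ 3 + (-33) * w ^ 4 + (-16) * w ^ 5 + (54) * w ^ 6 + (-15) * w ^ 7 + (-18) * w ^ 8 + (-3) * w ^ 9 + (16) * w ^ 10 + (-3) * w ^ 11 + (-3) * w ^ 12 + (-1) * w ^ 13 + (1) * w ^ 14) * x + ((-24) + (54) * w ^ 1 + (-21) * w ^ 2 + (-41) * w ^ 3 + (35) * w ^ 4 + (39) * w ^ 5 + (-50) * w ^ 6 + (-4) * w ^ 7 + (22) * w ^ 8 + (8) * w ^ 9 + (-15) * w ^ 10 + (1) * w ^ 11 + (3) * w ^ 12 + (1) * w ^ 13 + (-1) * w ^ 14) * y + ((-6) + (35) * w ^ 1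 + (-20) * w ^ 2 + (-26) * w ^ 3 + (31) * w ^ 4 + (6) * w ^ 5 + (-18) * w ^ 6 + (-6) * w ^ 7 + (13) * w ^ 8 + (-1) * w ^ 9 + (-3) * w ^ 10 + (-1) * w ^ 11 + (1) * w ^ 12) * z) * hw + (((12) * w ^ 1) * x + ((10) + (-10) * w ^ 1) * y + ((-12) * w ^ 1) * z) * h20
    · linear_combination (((20) + (24) * w ^ 1 + (-44) * w ^ 2 + (-4) * w ^ 3 + (42) * w ^ 4 + (-12) * w ^ 5 + (-25) * w ^ 6 + (6) * w ^ 7 + (13) * w ^ 8 + (-4) * w ^ 9 + (-4) * w ^ 10 + (1) * w ^ 12) * x + ((1) + (-56) * w ^ 1 + (40) * w ^ 2 + (32) * w ^ 3 + (-47) * w ^ 4 + (-5) * w ^ 5 + (30) * w ^ 6 + (-14) * w ^ 8 + (2) * w ^ 9 + (4) * w ^ 10 + (-1) * w ^ 12) * y + ((-16) + (-28) * w ^ 1 + (30) * w ^ 2 + (7) * w ^ 3 + (-24) * w ^ 4 + (12) * w ^ 6 + (-2) * w ^ 7 + (-4) * w ^ 8 + (1) * w ^ 10) * z) * hw + (((-10) + (-20) * w ^ 1) * x + ((24) * w ^ 1) * y + ((10) + (20) * w ^ 1) * z) * h20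
    · linear_combination (((24) * w ^ 1 + (-20) * w ^ 2 + (-20) * w ^ 3 + (36) * w ^ 4 + (-3) * w ^ 5 + (-17) * w ^ 6 + (-4) * w ^ 7 + (14) * w ^ 8 + (-2) * w ^ 9 + (-3) * w ^ 10 + (-1) * w ^ 11 + (1) * w ^ 12) * x + ((20) + (-40) * w ^ 1 + (10) * w ^ 2 + (39) * w ^ 3 + (-30) * w ^ 4 + (-13) * w ^ 5 + (19) * w ^ 6 + (9) * w ^ 7 + (-13) * w ^ 8 + (3) * w ^ 10 + (1) * w ^ 11 + (-1) * w ^ 12) * y + ((1) + (-26) * w ^ 1 + (15) * w ^ 2 + (13) * w ^ 3 + (-15) * w ^ 4 + (-7) * w ^ 5 + (11) * w ^ 6 + (-3) * w ^ 8 + (-1) * w ^ 9 + (1) * w ^ 10) * z) * hw + (((-12) * w ^ 1) * x + ((-10) + (10) * w ^ 1) * y + ((12) * w ^ 1) * z) * h20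
  -- one more direction
  have hwa : w + C.σ w + w * C.σ w = 0 := by rw [hr, hsw]; linear_combination hw
  have hupw : R.up w w hwa ∈ L := by
    have e : X * Y * Y * Y * X * Y * X * X * Y = R.up w w hwa := by
      refine R.ext_vec fun x y z => ?_
      simp only [hX, hY, UGen.mul_mulVec, R.up_vec, R.low_vec, map_one, hsw]
      refine vec_congr₃ ?_ ?_ ?_
      · linear_combination (((12) + (-45) * w ^ 1 + (42) * w ^ 2 + (11) * w ^ 3 + (-44) * w ^ 4 + (-10) * w ^ 5 + (64) * w ^ 6 + (-27) * w ^ 7 + (-15) * w ^ 8 + (3) * w ^ 9 + (12) * w ^ 10 + (-6) * w ^ 11) * x + ((-32) + (73) * w ^ 1 + (-37) * w ^ 2 + (-47) * w ^ 3 + (62) * w ^ 4 + (28) * w ^ 5 + (-67) * w ^ 6 + (15) * w ^ 7 + (24) * w ^ 8 + (-3) * w ^ 9 + (-12) * w ^ 10 + (6) * w ^ 11) * y + ((-2) + (56) * w ^ 1 + (-50) * w ^ 2 + (-19) * w ^ 3 + (49) * w ^ 4 + (-6) * w ^ 5 + (-24) * w ^ 6 + (3) * w ^ 7 + (12) * w ^ 8 + (-6) * w ^ 9) * z) * hw + (((-6)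 + (12) * w ^ 1) * x + ((14) + (-14) * w ^ 1) * y + ((-2) + (-22) * w ^ 1) * z) * h20
      · linear_combination (((30) + (27) * w ^ 1 + (-62) * w ^ 2 + (4) * w ^ 3 + (58) * w ^ 4 + (-30) * w ^ 5 + (-21) * w ^ 6 + (9) * w ^ 7 + (12) * w ^ 8 + (-6) * w ^ 9) * x + ((-30) + (-63) * w ^ 1 + (77) * w ^ 2 + (17) * w ^ 3 + (-70) * w ^ 4 + (18) * w ^ 5 + (30) * w ^ 6 + (-9) * w ^ 7 + (-12) * w ^ 8 + (6) * w ^ 9) * y + ((-56) + (-17) * w ^ 1 + (52) * w ^ 2 + (-9) * w ^ 3 + (-30) * w ^ 4 + (9) * w ^ 5 + (12) * w ^ 6 + (-6) * w ^ 7) * z) * hw + (((-15) + (-26) * w ^ 1) * x + ((15) + (41) * w ^ 1) * y + ((30) + (31) * w ^ 1) * z) * h20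
      · linear_combination (((12) + (32) * w ^ 1 + (-39) * w ^ 2 + (-17) * w ^ 3 + (56) * w ^ 4 + (-21) * w ^ 5 + (-15) * w ^ 6 + (3) * w ^ 7 + (12) * w ^ 8 + (-6) * w ^ 9) * x + ((-2) + (-62) * w ^ 1 + (48) * w ^ 2 + (35) * w ^ 3 + (-59) * w ^ 4 + (9) * w ^ 5 + (24) * w ^ 6 + (-3) * w ^ 7 + (-12) * w ^ 8 + (6) * w ^ 9) * y + ((-36) + (-26) * w ^ 1 + (41) * w ^ 2 + (-24) * w ^ 4 + (3) * w ^ 5 + (12) * w ^ 6 + (-6) * w ^ 7) * z) * hw + (((-6) + (-22) * w ^ 1) * x + ((1) + (32) * w ^ 1) * y + ((18) + (31) * w ^ 1) * z) * h20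
    rw [← e]
    exact mul_mem (mul_mem (mul_mem (mul_mem (mul_mem (mul_mem (mul_mem (mul_mem hXL hYL) hYL) hYL) hXL) hYL) hXL) hXL) hYL
  have hup : ∀ c, ∃ a h, R.up c a h ∈ L := by
    intro c
    rcases hcases c with rfl | rfl | rfl | rfl
    · exact ⟨0, by simp, by rw [R.up_zero]; exact one_mem _⟩
    · exact ⟨_, h1, hXL⟩
    · exact ⟨_, hwa, hupw⟩
    · obtain ⟨h'', e⟩ := R.up_mul 1 (w ^ 2) w w h1 hwa
      exact ⟨_, h'', e ▸ mul_mem hXL hupw⟩
  have htr : ∀ c : F, c + C.σ c = 0 → c = 0 ∨ c = 1 := by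
    intro c hc
    have hc2 : c * (c + 1) = 0 := by rw [C.pow, h2] at hc; linear_combination hc
    rcases mul_eq_zero.1 hc2 with h | h
    · exact Or.inl h
    · exact Or.inr (by linear_combination h - h20)
  have he : TMem C K N.e := by
    intro c hv hc
    have h0 : c + C.σ c + (0 : F) * C.σ 0 = 0 := by rw [zero_mul, add_zero]; exact hc
    obtain ⟨g1, g2, e⟩ := emb_up R N 0 c h0
    simp only [zero_smul] at e
    rw [eich_zero C N.e c hv _ _ hc] at e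
    rw [← e]
    show R.up 0 c h0 ∈ L
    rcases htr c hc with rfl | rfl
    · rw [R.up_zero]; exact one_mem _
    · have : X * X = R.up 0 1 h0 := by
        refine R.ext_vec fun x y z => ?_
        simp only [hX, UGen.mul_mulVec, R.up_vec, map_one, map_zero, zero_mul, sub_zero, add_zero, one_mul]
        refine vec_congr₃ ?_ ?_ ?_
        · linear_combination ((0) * x + (0) * y + ((2)) * z) * hw + ((0) * x + ((-1)) * y + ((-2) + (-1) * w ^ 1) * z) * h20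
        · linear_combination ((0) * x + (0) * y + (0) * z) * hw + ((0) * x + (0) * y + ((1)) * z) * h20
        · linear_combination ((0) * x + (0) * y + (0) * z) * hw + ((0) * x + (0) * y + (0) * z) * h20
      rw [← this]; exact mul_mem hXL hXL
  refine ⟨⟨N.e, N.m, N.f, N.ee, N.ff, N.fe, N.mm, N.me, N.mf, fun c => ?_, fun c hv hc => ?_,
    fun r hr => ?_⟩, rfl, rfl⟩
  · obtain ⟨a, h, hm⟩ := hup c
    obtain ⟨g1, g2, e⟩ := emb_up R N c a h
    refine emem_of_one he (a := a) (hv := N.ee) (hzv := g1) (ha := g2) ?_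
    rw [← e]
    exact hm
  · have h0 : c + C.σ c + (0 : F) * C.σ 0 = 0 := by rw [zero_mul, add_zero]; exact hc
    obtain ⟨g1, g2, e⟩ := emb_low R N 0 c h0
    simp only [zero_smul] at e
    rw [eich_zero C N.f c hv _ _ hc] at e
    rw [← e]
    show R.low 0 c h0 ∈ L
    rcases htr c hc with rfl | rfl
    · have : R.low 0 0 h0 = 1 := by
        refine R.ext_vec fun x y z => ?_
        rw [R.low_vec]
        simp [Matrix.one_mulVec]
      rw [this]; exact one_mem _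
    · have : Y * Y = R.low 0 1 h0 := by
        refine R.ext_vec fun x y z => ?_
        simp only [hY, UGen.mul_mulVec, R.low_vec, hsw, map_zero, zero_mul, sub_zero, add_zero, one_mul]
        refine vec_congr₃ ?_ ?_ ?_
        · linear_combination ((0) * x + (0) * y + (0) * z) * hw + ((0) * x + (0) * y + (0) * z) * h20
        · linear_combination ((0) * x + (0) * y + (0) * z) * hw + (((1) * w ^ 1) * x + (0) * y + (0) * z) * h20
        · linear_combination (((3) + (-1) * w ^ 1) * x + ((-2)) * y + (0) * z) * hw + (((-2) + (-1) * w ^ 1) * x + ((1) + (1) * w ^ 1) * y + (0) * z) * h20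
      rw [← this]; exact mul_mem hYL hYL
  · have hA : X * Y * X * Y * X * Y * X * Y ∈ L :=
      mul_mem (mul_mem (mul_mem (mul_mem (mul_mem (mul_mem (mul_mem hXL hYL) hXL) hYL) hXL) hYL) hXL) hYL
    have hcube : r = 1 ∨ r = w ∨ r = w ^ 2 := by
      rcases hcases r with h | h | h | h
      · rw [h, zero_mul] at hr; exact absurd hr zero_ne_one
      · exact Or.inl h
      · exact Or.inr (Or.inl h)
      · exact Or.inr (Or.inr (by rw [h]; linear_combination -hw + (1 + w) * h20))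
    have key : ∀ j : ℕ, ∀ x y z, mat₃ ((X * Y * X * Y * X * Y * X * Y) ^ j) *ᵥ R.vec x y z =
        R.vec (w ^ j * x) (((w ^ j)⁻¹) ^ 2 * y) (w ^ j * z) := by
      intro j
      induction j with
      | zero => intro x y z; simp [Matrix.one_mulVec]
      | succ j ih =>
        intro x y z
        rw [pow_succ, UGen.mul_mulVec, hscal, ih]
        refine vec_congr₃ ?_ ?_ ?_ <;> simp only [pow_succ, _root_.mul_inv_rev] <;> ring
    obtain ⟨j, rfl⟩ : ∃ j : ℕ, r = w ^ j := by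
      rcases hcube with h | h | h
      exacts [⟨0, by rw [h, pow_zero]⟩, ⟨1, by rw [h, pow_one]⟩, ⟨2, h⟩]
    exact ⟨_, (pow_mem hA j : _ ∈ L), emb_diag R N (key j)⟩

end CfsgLib.UGenN
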