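import Cfsg.Agent.UGen.Criterion
import Cfsg.Agent.UGenN.Closure

/-!
The copy of `SU₃` belonging to a hyperbolic pair and a unit vector of a larger unitary space.
-/

set_option autoImplicit false

namespace CfsgLib.UGenN

open Matrix CfsgLib.UGeom

variable {F : Type*} [Field F] [Fintype F] {q n : ℕ}

local notation "H" => Cfsg.hermForm n F q
local notation "hh" => Cfsg.hermForm 3 F q
local notation "Vn" => (Fin n → F)
local notation "SU" => Cfsg.SU n F q
local notation "SU3" => Cfsg.SU 3 F q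
local notation "mat" A:max => (((A : SU) : Matrix.SpecialLinearGroup (Fin n) F) : Matrix (Fin n) (Fin n) F)
local notation "mat₃" A:max => (((A : SU3) : Matrix.SpecialLinearGroup (Fin 3) F) : Matrix (Fin 3) (Fin 3) F)

/-- Two isotropic vectors with product one and a unit vector orthogonal to both. -/
structure NFrame (C : Conj F q) (n : ℕ) where
  /-- the first isotropic vector -/
  e : Fin n → F
  /-- the unit vector -/
  m : Fin n → F
  /-- the second isotropic vector -/
  f : Fin n → F
  ee : Cfsg.hermForm n F q e e = 0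
  ff : Cfsg.hermForm n F q f f = 0
  fe : Cfsg.hermForm n F q f e = 1
  mm : Cfsg.hermForm n F q m m = 1
  me : Cfsg.hermForm n F q m e = 0
  mf : Cfsg.hermForm n F q m f = 0

variable {C : Conj F q} (R : UGen.Frame C) (N : NFrame C n)

/-- The small space in the large one. -/
def incl : (Fin 3 → F) →ₗ[F] (Fin n → F) where
  toFun x := hh x R.f • N.e + hh x R.m • N.m + hh x R.e • N.f
  map_add' x y := by simp only [form_add_left]; module
  map_smul' c x := by simp only [form_smul_left, RingHom.id_apply]; module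

/-- The projection onto the small space. -/
def proj3 : (Fin n → F) →ₗ[F] (Fin 3 → F) where
  toFun v := R.vec (H v N.f) (H v N.m) (H v N.e)
  map_add' x y := by simp only [form_add_left, UGen.Frame.vec]; module
  map_smul' c x := by simp only [form_smul_left, RingHom.id_apply, UGen.Frame.vec]; module

theorem incl_apply (x : Fin 3 → F) : incl R N x = hh x R.f • N.e + hh x R.m • N.m + hh x R.e • N.f := rfl

theorem proj3_apply (v : Vn) : proj3 R N v = R.vec (H v N.f) (H v N.m) (H v N.e) := rfl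

theorem incl_vec (x y w : F) : incl R N (R.vec x y w) = x • N.e + y • N.m + w • N.f := by
  rw [incl_apply, R.vec_f, R.vec_m, R.vec_e]

theorem proj3_incl (x : Fin 3 → F) : proj3 R N (incl R N x) = x := by
  have hef : H N.e N.f = 1 := by rw [← form_conj C, N.fe, map_one]
  rw [proj3_apply, incl_apply]
  simp only [form_add_left, form_smul_left, N.ee, N.ff, N.fe, hef, N.me, N.mf, N.mm,
    flip_zero C N.me, flip_zero C N.mf, mul_zero, mul_one, zero_add, add_zero]
  exact (R.repr x).symm

theorem form_incl (v : Vn) (x : Fin 3 → F) : H v (incl R N x) = hh (proj3 R N v) x := by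
  conv_rhs => rw [R.repr x, proj3_apply, R.form_vec]
  rw [incl_apply]
  simp only [form_add_right C, form_smul_right C]
  ring

theorem incl_form (x y : Fin 3 → F) : H (incl R N x) (incl R N y) = hh x y := by
  rw [form_incl, proj3_incl]

/-- The matrix of the extension of an element of `SU₃`. -/
noncomputable def extMat (A : Matrix (Fin 3) (Fin 3) F) : Matrix (Fin n) (Fin n) F :=
  1 + LinearMap.toMatrix' (incl R N) * (A - 1) * LinearMap.toMatrix' (proj3 R N)

theorem extMat_mulVec (A : Matrix (Fin 3) (Fin 3) F) (v : Vn) :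
    extMat R N A *ᵥ v = v + incl R N (A *ᵥ proj3 R N v - proj3 R N v) := by
  rw [extMat, Matrix.add_mulVec, Matrix.one_mulVec, ← Matrix.mulVec_mulVec, ← Matrix.mulVec_mulVec,
    LinearMap.toMatrix'_mulVec, LinearMap.toMatrix'_mulVec, Matrix.sub_mulVec, Matrix.one_mulVec]

theorem extMat_det (A : Matrix (Fin 3) (Fin 3) F) : (extMat R N A).det = A.det := by
  rw [extMat, Matrix.det_one_add_mul_comm, ← Matrix.mul_assoc, ← LinearMap.toMatrix'_comp,
    show proj3 R N ∘ₗ incl R N = LinearMap.id from LinearMap.ext fun x => proj3_incl R N x,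
    LinearMap.toMatrix'_id, Matrix.one_mul, add_sub_cancel]

/-- The embedding of `SU₃`. -/
noncomputable def emb : SU3 →* SU :=
  let g : SU3 → SU := fun A => ⟨⟨extMat R N (mat₃ A), (extMat_det R N _).trans A.1.2⟩, fun v w => by
    show H (extMat R N (mat₃ A) *ᵥ v) (extMat R N (mat₃ A) *ᵥ w) = H v w
    have hAf := SU_form A (proj3 R N v) (proj3 R N w)
    have h1 : ∀ (x : Fin 3 → F) (u : Vn), H (incl R N x) u = hh x (proj3 R N u) := fun x u => by
      rw [← form_conj C, form_incl, form_conj C]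
    rw [extMat_mulVec, extMat_mulVec, form_add_left, form_add_right C, form_add_right C,
      incl_form, form_incl, h1, form_sub_left, form_sub_left, form_sub_right C, form_sub_right C,
      hAf]
    ring⟩
  MonoidHom.mk' g fun A B => SU_ext fun v => by
    rw [mul_mulVec]
    show extMat R N (mat₃ (A * B)) *ᵥ v = extMat R N (mat₃ A) *ᵥ (extMat R N (mat₃ B) *ᵥ v)
    rw [extMat_mulVec, extMat_mulVec R N (mat₃ A), extMat_mulVec, map_add, proj3_incl, add_sub_cancel,
      add_assoc, ← map_add, Subgroup.coe_mul, Matrix.SpecialLinearGroup.coe_mul,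
      ← Matrix.mulVec_mulVec]
    congr 2
    abel

theorem emb_mulVec (A : SU3) (v : Vn) :
    mat (emb R N A) *ᵥ v = v + incl R N (mat₃ A *ᵥ proj3 R N v - proj3 R N v) :=
  extMat_mulVec R N _ v

theorem emb_up (z a : F) (h : a + C.σ a + z * C.σ z = 0) :
    ∃ (h1 : H (z • N.m) N.e = 0) (h2 : a + C.σ a + H (z • N.m) (z • N.m) = 0),
      emb R N (R.up z a h) = eich C N.e (z • N.m) a N.ee h1 h2 := by
  refine ⟨by rw [form_smul_left, N.me, mul_zero], by
    rw [form_smul_left, form_smul_right C, N.mm, mul_one]; exact h, SU_ext fun v => ?_⟩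
  rw [emb_mulVec, eich_mulVec, proj3_apply, R.up_vec, map_sub, incl_vec, incl_vec, form_smul_right C]
  module

theorem emb_low (z a : F) (h : a + C.σ a + z * C.σ z = 0) :
    ∃ (h1 : H (z • N.m) N.f = 0) (h2 : a + C.σ a + H (z • N.m) (z • N.m) = 0),
      emb R N (R.low z a h) = eich C N.f (z • N.m) a N.ff h1 h2 := by
  refine ⟨by rw [form_smul_left, N.mf, mul_zero], by
    rw [form_smul_left, form_smul_right C, N.mm, mul_one]; exact h, SU_ext fun v => ?_⟩
  rw [emb_mulVec, eich_mulVec, proj3_apply, R.low_vec, map_sub, incl_vec, incl_vec, form_smul_right C]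
  module

/-- A diagonal element of `SU₃`. -/
theorem exists_diag {r : F} (hr : r * C.σ r = 1) :
    ∃ A : SU3, ∀ x y w, mat₃ A *ᵥ R.vec x y w = R.vec (r * x) ((r⁻¹) ^ 2 * y) (r * w) := by
  let P : Matrix (Fin 3) (Fin 3) F := Matrix.of fun i j => ![R.e, R.m, R.f] j i
  have hP : ∀ c : Fin 3 → F, P *ᵥ c = R.vec (c 0) (c 1) (c 2) := fun c => by
    funext i
    simp [P, Matrix.mulVec, dotProduct, Fin.sum_univ_three, UGen.Frame.vec, mul_comm]
  have hPd : P.det ≠ 0 := by
    intro h
    obtain ⟨c, hc, hc0⟩ := Matrix.exists_mulVec_eq_zero_iff.2 h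
    rw [hP] at hc0
    refine hc (funext fun i => ?_)
    have h0 := R.vec_f (c 0) (c 1) (c 2)
    have h1 := R.vec_m (c 0) (c 1) (c 2)
    have h2 := R.vec_e (c 0) (c 1) (c 2)
    rw [hc0, form_zero_left] at h0 h1 h2
    fin_cases i
    exacts [h0.symm, h1.symm, h2.symm]
  let D : Matrix (Fin 3) (Fin 3) F := Matrix.diagonal ![r, (r⁻¹) ^ 2, r]
  let M : Matrix (Fin 3) (Fin 3) F := P * D * P⁻¹
  have hM : ∀ x y w, M *ᵥ R.vec x y w = R.vec (r * x) ((r⁻¹) ^ 2 * y) (r * w) := by
    intro x y w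
    have e : R.vec x y w = P *ᵥ ![x, y, w] := by rw [hP]; rfl
    rw [e, Matrix.mulVec_mulVec, show M * P = P * D by
      rw [Matrix.mul_assoc, Matrix.nonsing_inv_mul P (isUnit_iff_ne_zero.2 hPd), Matrix.mul_one],
      ← Matrix.mulVec_mulVec, hP]
    congr 1 <;> simp [D, Matrix.mulVec_diagonal]
  have hr0 : r ≠ 0 := left_ne_zero_of_mul_eq_one hr
  have hdet : M.det = 1 := by
    show (P * D * P⁻¹).det = 1
    rw [Matrix.det_mul, Matrix.det_mul, Matrix.det_nonsing_inv, Ring.inverse_eq_inv', mul_comm P.det,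
      mul_assoc, mul_inv_cancel₀ hPd, mul_one, Matrix.det_diagonal]
    simp [Fin.prod_univ_three]
    field_simp
  refine ⟨⟨⟨M, hdet⟩, fun u v => ?_⟩, hM⟩
  show hh (M *ᵥ u) (M *ᵥ v) = hh u v
  rw [R.repr u, R.repr v, hM, hM, R.form_vec, R.form_vec]
  have hσ : C.σ r = r⁻¹ := eq_inv_of_mul_eq_one_right hr
  simp only [map_mul, map_pow, map_inv₀, hσ]
  field_simp

/-- The element of the copy giving the torus. -/
theorem emb_diag {r : F} {A : SU3}
    (hA : ∀ x y w, mat₃ A *ᵥ R.vec x y w = R.vec (r * x) ((r⁻¹) ^ 2 * y) (r * w)) :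
    mat (emb R N A) *ᵥ N.e = r • N.e ∧ mat (emb R N A) *ᵥ N.f = r • N.f ∧
    mat (emb R N A) *ᵥ N.m = (r⁻¹) ^ 2 • N.m ∧
    ∀ x, H x N.e = 0 → H x N.f = 0 → H x N.m = 0 → mat (emb R N A) *ᵥ x = x := by
  have hef : H N.e N.f = 1 := by rw [← form_conj C, N.fe, map_one]
  refine ⟨?_, ?_, ?_, fun x h1 h2 h3 => ?_⟩ <;>
    simp only [emb_mulVec, proj3_apply, hA, map_sub, incl_vec, N.ee, N.ff, N.fe, hef, N.me, N.mf,
      N.mm, flip_zero C N.me, flip_zero C N.mf, *] <;>
    module

/-- A subgroup containing the whole copy satisfies the hypotheses of the criterion. -/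
theorem seed_of_copy {K : Subgroup (Cfsg.SU n F q)} (R : UGen.Frame C) (N : NFrame C n) (h : ∀ A : SU3, emb R N A ∈ K) : ∃ D : Seed C K, D.e = N.e ∧ D.m = N.m := by
  refine ⟨⟨N.e, N.m, N.f, N.ee, N.ff, N.fe, N.mm, N.me, N.mf, fun c a hv hzv ha => ?_, fun c hv hc => ?_,
    fun r hr => ?_⟩, rfl, rfl⟩
  · have h0 : a + C.σ a + c * C.σ c = 0 := by
      rw [form_smul_left, form_smul_right C, N.mm, mul_one] at ha; exact ha
    obtain ⟨h1, h2, e⟩ := emb_up R N c a h0
    rw [← e]
    exact h _
  · have h0 : c + C.σ c + (0 : F) * C.σ 0 = 0 := by rw [zero_mul, add_zero]; exact hc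
    obtain ⟨h1, h2, e⟩ := emb_low R N 0 c h0
    simp only [zero_smul] at e
    rw [eich_zero C N.f c hv _ _ hc] at e
    rw [← e]
    exact h _
  · obtain ⟨A, hA⟩ := exists_diag R hr
    exact ⟨emb R N A, h _, emb_diag R N hA⟩

end CfsgLib.UGenN
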